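import Cfsg.Agent.JV.Sq
import Cfsg.Agent.JC.Local
import Cfsg.Agent.H80.Index2
import Cfsg.Prelude.Def_TwoFusion

/-! Groups with an involution centraliser `C2 × A_m`. -/

set_option autoImplicit false

namespace Cfsg.Agent.JV

open Cfsg Subgroup Cfsg.Agent.JC

/-- An embedding of `C2 × A_m` as the centraliser of an involution. -/
structure EmbM (m : ℕ) (G : Type*) [Group G] where
  iota : M2 × alternatingGroup (Fin m) →* G
  inj : Function.Injective iota
  cent : ∀ g : G, g * iota (e1, 1) = iota (e1, 1) * g → ∃ y, iota y = g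

theorem m2_cases : ∀ x : M2, x = 1 ∨ x = e1 := by decide +kernel
theorem m2_e1 : e1 * e1 = 1 := by decide +kernel
theorem e1_ne : e1 ≠ 1 := by decide +kernel
theorem m2_mul_self : ∀ x : M2, x * x = 1 := by decide +kernel

section

variable {G : Type*} [Group G] {m : ℕ}

theorem exists_embM {J : G} (hJ : orderOf J = 2) (T : Subgroup G)
    (ε : T ≃* alternatingGroup (Fin m))
    (hd : Cfsg.IsInternalDirectProduct (zpowers J) T (centralizer ({J} : Set G))) :
    ∃ E : EmbM m G, E.iota (e1, 1) = J := by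
  classical
  obtain ⟨h1, h2, h3, h4, h5⟩ := hd
  have hJJ : J * J = 1 := by rw [← pow_two, ← hJ]; exact pow_orderOf_eq_one J
  have hJ1 : J ≠ 1 := by
    rintro rfl
    rw [orderOf_one] at hJ
    omega
  let f1 : M2 →* G :=
    { toFun := fun x => if x = 1 then 1 else J
      map_one' := if_pos rfl
      map_mul' := by
        intro x y
        rcases m2_cases x with rfl | rfl <;> rcases m2_cases y with rfl | rfl
        · simp
        · simp [e1_ne]
        · simp [e1_ne]
        · simp [e1_ne, m2_e1, hJJ] }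
  have hf1e : f1 e1 = J := by
    change (if e1 = 1 then (1 : G) else J) = J
    exact if_neg e1_ne
  have hf1mem : ∀ x, f1 x ∈ zpowers J := by
    intro x
    rcases m2_cases x with rfl | rfl
    · rw [map_one]; exact one_mem _
    · rw [hf1e]; exact mem_zpowers J
  let f2 : alternatingGroup (Fin m) →* G := T.subtype.comp ε.symm.toMonoidHom
  have hf2mem : ∀ α, f2 α ∈ T := fun α => (ε.symm α).2
  have hf2inj : Function.Injective f2 := T.subtype_injective.comp ε.symm.injective
  have hcomm : ∀ x α, Commute (f1 x) (f2 α) := fun x α => h3 _ (hf1mem x) _ (hf2mem α)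
  let f := f1.noncommCoprod f2 hcomm
  have hf : ∀ p, f p = f1 p.1 * f2 p.2 := fun p => MonoidHom.noncommCoprod_apply _ _ _ _
  have hfJ : f (e1, 1) = J := by rw [hf, hf1e, map_one, mul_one]
  have hrange : centralizer ({J} : Set G) ≤ f.range := by
    rw [← h5, sup_le_iff]
    constructor
    · rw [zpowers_le]
      exact ⟨(e1, 1), hfJ⟩
    · intro τ hτ
      refine ⟨(1, ε ⟨τ, hτ⟩), ?_⟩
      rw [hf, map_one, one_mul]
      change ((ε.symm (ε ⟨τ, hτ⟩) : T) : G) = τ
      rw [MulEquiv.symm_apply_apply]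
  refine ⟨⟨f, ?_, ?_⟩, hfJ⟩
  · rw [injective_iff_map_eq_one]
    rintro ⟨x, α⟩ hx
    rw [hf] at hx
    have e2 : f2 α = (f1 x)⁻¹ := eq_inv_of_mul_eq_one_right hx
    have e3 : f2 α ∈ zpowers J ⊓ T :=
      Subgroup.mem_inf.mpr ⟨by rw [e2]; exact inv_mem (hf1mem x), hf2mem α⟩
    rw [h4, mem_bot] at e3
    have e4 : α = 1 := hf2inj (e3.trans (map_one f2).symm)
    rw [e3, mul_one] at hx
    rcases m2_cases x with rfl | rfl
    · rw [e4]; rfl
    · change f1 e1 = 1 at hx
      rw [hf1e] at hx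
      exact absurd hx hJ1
  · intro g hg
    rw [hfJ] at hg
    obtain ⟨y, hy⟩ := hrange (mem_centralizer_singleton_iff.mpr hg)
    exact ⟨y, hy⟩

variable (E : EmbM m G)

theorem EmbM.J_sq : E.iota (e1, 1) * E.iota (e1, 1) = 1 := by
  rw [← map_mul, show ((e1, 1) : M2 × alternatingGroup (Fin m)) * (e1, 1) = 1 from
    Prod.ext m2_e1 (mul_one 1), map_one]

theorem EmbM.J_ne : E.iota (e1, 1) ≠ 1 := by
  intro h
  rw [← map_one E.iota] at h
  exact e1_ne (congrArg Prod.fst (E.inj h))

theorem EmbM.J_order : orderOf (E.iota (e1, 1)) = 2 := by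
  have : Fact (Nat.Prime 2) := ⟨Nat.prime_two⟩
  exact orderOf_eq_prime (by rw [pow_two]; exact E.J_sq) E.J_ne

theorem EmbM.comm (y : M2 × alternatingGroup (Fin m)) :
    E.iota y * E.iota (e1, 1) = E.iota (e1, 1) * E.iota y := by
  rw [← map_mul, ← map_mul]
  congr 1
  refine Prod.ext ?_ ?_
  · exact mul_comm _ _
  · change y.2 * 1 = 1 * y.2
    rw [mul_one, one_mul]

/-- The involution is fused to one in `A_m`. -/
theorem EmbM.exists_fusion [Finite G] (h2 : ∀ N : Subgroup G, N.Normal → N.index ≠ 2)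
    (hJ : Cfsg.IsTwoCentralInvolution (E.iota (e1, 1))) :
    ∃ α : alternatingGroup (Fin m), IsConj (E.iota (e1, 1)) (E.iota (1, α)) := by
  have : Fact (Nat.Prime 2) := ⟨Nat.prime_two⟩
  obtain ⟨hJ2, P, hJP, hP⟩ := hJ
  set J := E.iota (e1, 1) with hJdef
  let T := (E.iota.comp (MonoidHom.inr M2 (alternatingGroup (Fin m)))).range
  have hT : ∀ p : M2 × alternatingGroup (Fin m), E.iota p ∈ T ↔ p.1 = 1 := by
    intro p
    constructor
    · rintro ⟨α, hα⟩
      have : E.iota (1, α) = E.iota p := hα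
      rw [← E.inj this]
    · intro h
      refine ⟨p.2, ?_⟩
      change E.iota (1, p.2) = E.iota p
      congr 1
      rw [← h]
  let R := T ⊓ (P : Subgroup G)
  have hrel : R.relIndex (P : Subgroup G) = 2 := by
    rw [Subgroup.relIndex, Subgroup.index_eq_two_iff]
    refine ⟨⟨J, hJP⟩, ?_⟩
    rintro ⟨b, hb⟩
    rw [mem_subgroupOf, mem_subgroupOf]
    obtain ⟨⟨x, α⟩, rfl⟩ := E.cent b (hP b hb)
    have e1' : E.iota (x, α) ∈ R ↔ x = 1 := by
      rw [Subgroup.mem_inf, hT]
      exact ⟨fun h => h.1, fun h => ⟨h, hb⟩⟩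
    have e2' : E.iota (x, α) * J ∈ R ↔ x * e1 = 1 := by
      rw [Subgroup.mem_inf, hJdef, ← map_mul, hT]
      exact ⟨fun h => h.1, fun h => ⟨h, by
        rw [map_mul]; exact mul_mem hb hJP⟩⟩
    change Xor' (E.iota (x, α) * J ∈ R) (E.iota (x, α) ∈ R)
    rw [e1', e2']
    rcases m2_cases x with rfl | rfl
    · right
      exact ⟨rfl, by rw [one_mul]; exact e1_ne⟩
    · left
      exact ⟨m2_e1, e1_ne⟩
  have hidx : R.index % 4 = 2 := by
    have h3 := Subgroup.relIndex_mul_index (inf_le_right : R ≤ (P : Subgroup G))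
    have h4 : ¬ 2 ∣ (P : Subgroup G).index := P.not_dvd_index
    generalize (P : Subgroup G).index = a at h3 h4
    rw [hrel] at h3
    rw [← h3]
    omega
  by_contra hno
  push Not at hno
  obtain ⟨H, hH, -⟩ := Cfsg.Agent.H80.thompson_transfer R hidx J hJ2 (by
    intro g hg
    obtain ⟨⟨α, hα⟩, -⟩ := hg
    exact hno α (isConj_iff.mpr ⟨g, hα.symm⟩))
  exact h2 H (Subgroup.normal_of_index_eq_two hH) hH

/-- `m ≥ 6` is impossible. -/
theorem EmbM.not_six (hm : 6 ≤ m)
    (hα : ∃ α : alternatingGroup (Fin m), IsConj (E.iota (e1, 1)) (E.iota (1, α))) : False := by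
  obtain ⟨α, h⟩ := hα
  obtain ⟨g, hg⟩ := isConj_iff.mp h
  let T := (E.iota.comp (MonoidHom.inr M2 (alternatingGroup (Fin m)))).range
  let K : Subgroup (alternatingGroup (Fin m)) :=
    (T.map (MulAut.conj g).toMonoidHom).comap
      (E.iota.comp (MonoidHom.inr M2 (alternatingGroup (Fin m))))
  have hαα : α * α = 1 := by
    have h1 : E.iota (1, α) * E.iota (1, α) = 1 := by
      rw [← hg]
      have : g * E.iota (e1, 1) * g⁻¹ * (g * E.iota (e1, 1) * g⁻¹) =
        g * (E.iota (e1, 1) * E.iota (e1, 1)) * g⁻¹ := by group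
      rw [this, E.J_sq, mul_one, mul_inv_cancel]
    rw [← map_mul, ← map_one E.iota] at h1
    exact congrArg Prod.snd (E.inj h1)
  have hK : α ∈ K := by
    apply alt_sq hm α hαα K
    intro y hy
    have h1 : E.iota (1, y) * E.iota (1, α) = E.iota (1, α) * E.iota (1, y) := by
      rw [← map_mul, ← map_mul]
      congr 1
      exact Prod.ext rfl hy
    have h2 : g⁻¹ * E.iota (1, y) * g * E.iota (e1, 1) =
        E.iota (e1, 1) * (g⁻¹ * E.iota (1, y) * g) := by
      have h3 : E.iota (e1, 1) = g⁻¹ * E.iota (1, α) * g := by rw [← hg]; group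
      rw [h3]
      calc g⁻¹ * E.iota (1, y) * g * (g⁻¹ * E.iota (1, α) * g) =
            g⁻¹ * (E.iota (1, y) * E.iota (1, α)) * g := by group
        _ = g⁻¹ * (E.iota (1, α) * E.iota (1, y)) * g := by rw [h1]
        _ = _ := by group
    obtain ⟨⟨a, β⟩, hβ⟩ := E.cent _ h2
    change E.iota (1, y * y) ∈ T.map (MulAut.conj g).toMonoidHom
    refine ⟨E.iota (1, β * β), ⟨β * β, rfl⟩, ?_⟩
    change g * E.iota (1, β * β) * g⁻¹ = E.iota (1, y * y)
    have h3 : E.iota (1, β * β) = E.iota (a, β) * E.iota (a, β) := by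
      rw [← map_mul]
      congr 1
      exact Prod.ext (m2_mul_self a).symm rfl
    have h4 : E.iota (1, y * y) = E.iota (1, y) * E.iota (1, y) := by
      rw [← map_mul]
      congr 1
    rw [h3, hβ, h4]
    group
  obtain ⟨x, ⟨β, hβ⟩, hx⟩ := hK
  have h1 : E.iota (1, β) = x := hβ
  have h2 : g * x * g⁻¹ = E.iota (1, α) := hx
  rw [← hg] at h2
  have h3 : x = E.iota (e1, 1) := by
    have := mul_right_cancel h2
    exact mul_left_cancel this
  rw [← h1] at h3
  exact e1_ne (congrArg Prod.fst (E.inj h3)).symm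

/-- `m ≤ 3` is impossible. -/
theorem EmbM.not_three (hm : m ≤ 3)
    (hα : ∃ α : alternatingGroup (Fin m), IsConj (E.iota (e1, 1)) (E.iota (1, α))) : False := by
  obtain ⟨α, h⟩ := hα
  obtain ⟨g, hg⟩ := isConj_iff.mp h
  have hαα : α * α = 1 := by
    have h1 : E.iota (1, α) * E.iota (1, α) = 1 := by
      rw [← hg]
      have : g * E.iota (e1, 1) * g⁻¹ * (g * E.iota (e1, 1) * g⁻¹) =
        g * (E.iota (e1, 1) * E.iota (e1, 1)) * g⁻¹ := by group
      rw [this, E.J_sq, mul_one, mul_inv_cancel]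
    rw [← map_mul, ← map_one E.iota] at h1
    exact congrArg Prod.snd (E.inj h1)
  have hα1 : α ≠ 1 := by
    rintro rfl
    have h1 : E.iota (e1, 1) = 1 := by
      have h2 : E.iota (1, (1 : alternatingGroup (Fin m))) = 1 := map_one E.iota
      rw [h2, mul_inv_eq_one] at hg
      exact mul_left_cancel (hg.trans (mul_one g).symm)
    exact E.J_ne h1
  have key : ∀ m : ℕ, m ≤ 3 → ∀ α : alternatingGroup (Fin m), α * α = 1 → α = 1 := by
    intro m hm
    interval_cases m
    · decide +kernel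
    · decide +kernel
    · decide +kernel
    · decide +kernel
  exact hα1 (key m hm α hαα)

end

end Cfsg.Agent.JV
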