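import Cfsg.Agent.JV.Base
import Cfsg.Agent.JU.Iso
import Cfsg.Agent.J1.Cent
import Cfsg.Agent.J1.Theory

/-! The case `m = 5`. -/

set_option autoImplicit false

namespace Cfsg.Agent.JV

open Cfsg Subgroup Cfsg.Agent.JC

section

variable {G : Type*} [Group G]

theorem hex_of_conj (E : Emb G) {x : CA} (h1 : x ≠ 1) (h2 : x ≠ zz)
    (h3 : IsConj (E.iota zz) (E.iota x)) :
    ∃ y : E8, y ≠ zE ∧ IsConj (E.iota zz) (E.iota (kap y)) := by
  have hsq : x * x = 1 := by
    obtain ⟨g, hg⟩ := isConj_iff.mp h3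
    apply E.inj
    rw [map_mul, ← hg, map_one]
    have : g * E.iota zz * g⁻¹ * (g * E.iota zz * g⁻¹) = g * (E.iota zz * E.iota zz) * g⁻¹ := by
      group
    rw [this, E.zz_sq', mul_one, mul_inv_cancel]
  obtain ⟨γ, hγ⟩ := a5_inv_conj x.2 (snd_ne h1 h2) (congrArg Prod.snd hsq)
  have hc : (1, γ) * kap (x.1, e1, 1) * (1, γ)⁻¹ = x := by
    have h3 : vv e1 1 = v1 := by decide +kernel
    refine Prod.ext ?_ ?_
    · change 1 * x.1 * 1⁻¹ = x.1
      group
    · change γ * vv e1 1 * γ⁻¹ = x.2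
      rw [h3, hγ]
  refine ⟨(x.1, e1, 1), ?_, ?_⟩
  · intro h1
    exact absurd (congrArg (fun y : E8 => y.2.1) h1) (by change ¬ e1 = 1; decide)
  · refine h3.trans ?_
    apply IsConj.symm
    rw [isConj_iff]
    exact ⟨E.iota (1, γ), by rw [← map_inv, ← map_mul, ← map_mul, hc]⟩


theorem q12_ne : q1 * q2 ≠ 1 := by decide +kernel
theorem q01_ne : q0 * q1 ≠ 1 := by decide +kernel

theorem v1_move : ∃ c : A5, v1 * (c * v1 * c⁻¹) = (c * v1 * c⁻¹) * v1 ∧ c * v1 * c⁻¹ ≠ v1 := by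
  decide +kernel

theorem simple_of_fusion [Finite G] (E : Emb G) (h16 : ¬ 16 ∣ Nat.card G) {x : CA} (h1 : x ≠ 1)
    (h2 : x ≠ zz) (h3 : IsConj (E.iota zz) (E.iota x)) : IsSimpleGroup G := by
  have hex := hex_of_conj E h1 h2 h3
  set N : Subgroup G := closure {x : G | x * x = 1} with hN
  apply simple_of_gen E h16 hex (S := {x : G | x * x = 1}) _ (fun x hx => hx)
  rw [← hN]
  have hinvN : ∀ x : G, x * x = 1 → x ∈ N := fun x hx => subset_closure hx
  have hNn : N.Normal := by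
    refine ⟨fun n hn g => ?_⟩
    have h4 : N.map (MulAut.conj g).toMonoidHom ≤ N := by
      rw [hN, MonoidHom.map_closure, closure_le]
      rintro _ ⟨x, hx, rfl⟩
      apply Subgroup.subset_closure
      change g * x * g⁻¹ * (g * x * g⁻¹) = 1
      have : g * x * g⁻¹ * (g * x * g⁻¹) = g * (x * x) * g⁻¹ := by group
      rw [this, show x * x = 1 from hx, mul_one, mul_inv_cancel]
    exact h4 ⟨n, hn, rfl⟩
  have hall : ∀ y : CA, E.iota y ∈ N := by
    have hmem : ∀ α : A5, α * α = 1 → ((1, α) : CA) ∈ N.comap E.iota := by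
      intro α hα
      rw [mem_comap]
      apply hinvN
      rw [← map_mul, show ((1, α) : CA) * (1, α) = 1 from Prod.ext (mul_one 1) hα, map_one]
    have htop : N.comap E.iota = ⊤ := by
      have g0 : zz ∈ N.comap E.iota := by rw [mem_comap]; exact hinvN _ E.zz_sq'
      have g1 : ((1, q1) : CA) * (1, q2) ∈ N.comap E.iota :=
        mul_mem (hmem q1 tri1.bb) (hmem q2 tri1.cc)
      have g2 : ((1, q0) : CA) * (1, q1) ∈ N.comap E.iota :=
        mul_mem (hmem q0 tri1.aa) (hmem q1 tri1.bb)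
      have g3 : (((1, q1) : CA) * (1, q2)) ^ 3 = 1 :=
        Prod.ext (by change ((1 : M2) * 1) ^ 3 = 1; decide) tri1.bc
      have g4 : ((1, q1) : CA) * (1, q2) ≠ 1 := by
        intro h
        exact q12_ne (congrArg Prod.snd h)
      have g5 : (((1, q0) : CA) * (1, q1)) ^ 5 = 1 :=
        Prod.ext (by change ((1 : M2) * 1) ^ 5 = 1; decide) tri1.ab
      have g6 : ((1, q0) : CA) * (1, q1) ≠ 1 := by
        intro h
        exact q01_ne (congrArg Prod.snd h)
      exact ca_top (N.comap E.iota) g0 g1 g2 g3 g4 g5 g6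
    intro y
    have : y ∈ N.comap E.iota := by rw [htop]; exact mem_top _
    exact this
  let EN : Emb N :=
    { iota := E.iota.codRestrict N hall
      inj := by
        intro x y hxy
        exact E.inj (congrArg Subtype.val hxy)
      cent := by
        intro g hg
        obtain ⟨y, hy⟩ := E.cent g (congrArg Subtype.val hg)
        exact ⟨y, Subtype.ext hy⟩ }
  have hEN : ∀ y, ((EN.iota y : N) : G) = E.iota y := fun y => rfl
  have h16N : ¬ 16 ∣ Nat.card N := fun h1 => h16 (h1.trans (card_subgroup_dvd_card N))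
  -- fusion in `N`
  have hexN : ∃ y : E8, y ≠ zE ∧ IsConj (EN.iota zz) (EN.iota (kap y)) := by
    obtain ⟨c, hc1, hc2⟩ := v1_move
    have hv : ((1, v1) : CA) * (1, v1) = 1 := Prod.ext (mul_one 1) v1_sq
    have hvne : E.iota (1, v1) ≠ 1 := by
      intro h
      rw [← map_one E.iota] at h
      exact v1_ne (congrArg Prod.snd (E.inj h))
    obtain ⟨g, hg⟩ := isConj_iff.mp (conj_inv' E h16 hex (x := E.iota (1, v1))
      (by rw [← map_mul, hv, map_one]) hvne)
    -- `m = g⁻¹ c g` moves the central involution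
    set m := g⁻¹ * E.iota (1, c) * g with hm
    have hmN : m ∈ N := by
      have := hNn.conj_mem _ (hall (1, c)) g⁻¹
      rwa [inv_inv] at this
    have hJ : E.iota zz = g⁻¹ * E.iota (1, v1) * g := by rw [← hg]; group
    have e1' : m * E.iota zz * m⁻¹ = g⁻¹ * E.iota (1, c * v1 * c⁻¹) * g := by
      have : E.iota (1, c * v1 * c⁻¹) = E.iota (1, c) * E.iota (1, v1) * (E.iota (1, c))⁻¹ := by
        rw [← map_inv, ← map_mul, ← map_mul]
        congr 1
        exact Prod.ext (by change (1 : M2) = 1 * 1 * 1⁻¹; group) rfl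
      rw [this, hm, hJ]
      group
    have e2' : (m * E.iota zz * m⁻¹) * E.iota zz = E.iota zz * (m * E.iota zz * m⁻¹) := by
      rw [e1', hJ]
      have h4 : E.iota (1, c * v1 * c⁻¹) * E.iota (1, v1) =
          E.iota (1, v1) * E.iota (1, c * v1 * c⁻¹) := by
        rw [← map_mul, ← map_mul]
        congr 1
        exact Prod.ext rfl hc1.symm
      calc g⁻¹ * E.iota (1, c * v1 * c⁻¹) * g * (g⁻¹ * E.iota (1, v1) * g) =
            g⁻¹ * (E.iota (1, c * v1 * c⁻¹) * E.iota (1, v1)) * g := by group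
        _ = g⁻¹ * (E.iota (1, v1) * E.iota (1, c * v1 * c⁻¹)) * g := by rw [h4]
        _ = _ := by group
    obtain ⟨x', hx'⟩ := E.cent _ e2'
    apply hex_of_conj EN (x := x')
    · rintro rfl
      rw [map_one] at hx'
      apply E.zz_ne'
      have h5 : m * E.iota zz = m * 1 := by
        rw [mul_one]
        exact mul_inv_eq_one.mp hx'.symm
      exact mul_left_cancel h5
    · rintro rfl
      rw [e1', hJ] at hx'
      have h5 : E.iota (1, v1) = E.iota (1, c * v1 * c⁻¹) := by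
        have := mul_right_cancel hx'
        exact mul_left_cancel this
      exact hc2 (congrArg Prod.snd (E.inj h5)).symm
    · rw [isConj_iff]
      exact ⟨⟨m, hmN⟩, Subtype.ext hx'.symm⟩
  rw [eq_top_iff]
  intro g _
  have hgJ : (g * E.iota zz * g⁻¹) * (g * E.iota zz * g⁻¹) = 1 := by
    have : g * E.iota zz * g⁻¹ * (g * E.iota zz * g⁻¹) = g * (E.iota zz * E.iota zz) * g⁻¹ := by
      group
    rw [this, E.zz_sq', mul_one, mul_inv_cancel]
  have hgJ1 : g * E.iota zz * g⁻¹ ≠ 1 := by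
    intro h
    apply E.zz_ne'
    have h5 : g * E.iota zz = g * 1 := by
      rw [mul_one]
      exact mul_inv_eq_one.mp h
    exact mul_left_cancel h5
  obtain ⟨⟨n, hnN⟩, hn⟩ := isConj_iff.mp (conj_inv' EN h16N hexN
    (x := (⟨g * E.iota zz * g⁻¹, hinvN _ hgJ⟩ : N)) (Subtype.ext hgJ)
    (fun h => hgJ1 (congrArg Subtype.val h)))
  have hn' : n * E.iota zz * n⁻¹ = g * E.iota zz * g⁻¹ := congrArg Subtype.val hn
  have h6 : n⁻¹ * g * E.iota zz = E.iota zz * (n⁻¹ * g) := by
    calc n⁻¹ * g * E.iota zz = n⁻¹ * (g * E.iota zz * g⁻¹) * g := by group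
      _ = n⁻¹ * (n * E.iota zz * n⁻¹) * g := by rw [hn']
      _ = _ := by group
  obtain ⟨y, hy⟩ := E.cent _ h6
  have h7 : g = n * E.iota y := by rw [hy]; group
  rw [h7]
  exact mul_mem hnN (hall y)

theorem five_case [Finite G] (E : EmbM 5 G) (hJ : Cfsg.IsTwoCentralInvolution (E.iota (e1, 1)))
    (hα : ∃ α : alternatingGroup (Fin 5), IsConj (E.iota (e1, 1)) (E.iota (1, α))) :
    Cfsg.Spor.IsoJ1 G := by
  let E' : Emb G := ⟨E.iota, E.inj, E.cent⟩
  have h16 : ¬ 16 ∣ Nat.card G := card_mod16 E' hJ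
  obtain ⟨α, hα⟩ := hα
  have hα1 : α ≠ 1 := by
    rintro rfl
    obtain ⟨g, hg⟩ := isConj_iff.mp hα
    have h1 : E.iota (e1, 1) = 1 := by
      have h2 : E.iota (1, (1 : alternatingGroup (Fin 5))) = 1 := map_one E.iota
      rw [h2, mul_inv_eq_one] at hg
      exact mul_left_cancel (hg.trans (mul_one g).symm)
    exact E.J_ne h1
  have hs : IsSimpleGroup G := simple_of_fusion E' h16 (x := (1, α))
    (fun h => hα1 (congrArg Prod.snd h)) (fun h => hα1 (congrArg Prod.snd h)) hα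
  have hd1 : Cfsg.Agent.J1.dJ ≠ 1 := by
    intro h
    have h1 := Cfsg.Agent.J1.orderOf_dJ
    rw [h, orderOf_one] at h1
    exact absurd h1 (by norm_num)
  obtain ⟨f⟩ := Cfsg.Agent.J1.centralizer_iso
  obtain ⟨F, hF⟩ := Cfsg.Agent.JC.exists_emb Cfsg.Agent.J1.dJ hd1 f
  have h16' : ¬ 16 ∣ Nat.card Cfsg.Spor.J1 := by
    have h1 : Nat.card Cfsg.Spor.J1 = 175560 := Cfsg.Agent.J1.card_J
    rw [h1]
    norm_num
  have hfin : Finite Cfsg.Spor.J1 := inferInstance
  have hs' : IsSimpleGroup Cfsg.Spor.J1 := Cfsg.Agent.J1.simple_J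
  exact Cfsg.Agent.JC.iso_of_emb E' F h16 h16'

end

end Cfsg.Agent.JV
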