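import Cfsg.Agent.JV.Base
import Cfsg.Agent.JC.Fusion
import Cfsg.Agent.H80.StrongEmb

/-! The case `m = 4`: local structure. -/

set_option autoImplicit false

namespace Cfsg.Agent.JV

open Cfsg Subgroup Cfsg.Agent.JC

abbrev A4 := alternatingGroup (Fin 4)
abbrev CA4 := M2 × A4

def tp4 (f g : Fin 4 → Fin 4) (h1 : ∀ i, g (f i) = i) (h2 : ∀ i, f (g i) = i) :
    Equiv.Perm (Fin 4) := ⟨f, g, h1, h2⟩

def vp1 : A4 := ⟨tp4 ![1, 0, 3, 2] ![1, 0, 3, 2] (by decide) (by decide),
  by rw [Equiv.Perm.mem_alternatingGroup]; decide⟩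
def vp2 : A4 := ⟨tp4 ![2, 3, 0, 1] ![2, 3, 0, 1] (by decide) (by decide),
  by rw [Equiv.Perm.mem_alternatingGroup]; decide⟩
def cp3 : A4 := ⟨tp4 ![1, 2, 0, 3] ![2, 0, 1, 3] (by decide) (by decide),
  by rw [Equiv.Perm.mem_alternatingGroup]; decide⟩

def z4 : CA4 := (e1, 1)
def n3 : CA4 := (1, cp3)

def vv4 (a b : M2) : A4 := (if a = 1 then 1 else vp1) * (if b = 1 then 1 else vp2)

def kap4F (y : E8) : CA4 := (y.1, vv4 y.2.1 y.2.2)

def kap4 : E8 →* CA4 where
  toFun := kap4F
  map_one' := by decide +kernel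
  map_mul' := by decide +kernel

theorem kap4_inj : Function.Injective kap4 := by
  have h : ∀ x y : E8, kap4F x = kap4F y → x = y := by decide +kernel
  exact fun x y => h x y

theorem kap4_zE : kap4 zE = z4 := by
  have : kap4F zE = z4 := by decide +kernel
  exact this

theorem kap4_fst (y : E8) : (kap4 y).1 = y.1 := rfl

theorem kap4_surj : ∀ y : CA4, y * y = 1 → ∃ x : E8, kap4F x = y := by decide +kernel

theorem kap4_self : ∀ y : CA4, (∀ x : E8, y * kap4F x = kap4F x * y) → ∃ x : E8, kap4F x = y := by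
  decide +kernel

theorem kap4_orbit : ∀ y : E8, y ≠ 1 → y ≠ zE → ∃ j : Fin 3,
    kap4F y * n3 ^ (j : ℕ) = n3 ^ (j : ℕ) * kap4F (y.1, e1, 1) := by
  decide +kernel

theorem card_CA4 : Fintype.card CA4 = 24 := by decide +kernel

theorem e8_count : Fintype.card {y : E8 // y ≠ 1} = 7 := by decide +kernel

def chkA (y0 : E8) : Bool := !(decide (y0 = 1)) && decide (y0.1 = 1)
def chkB (y : E8) : Bool := decide (y.1 = 1) || decide (y = zE)
def chkC (y0 y1 y2 : E8) : Bool := decide (y1 = 1) || decide (y2 = 1) || decide (y1 = y2) ||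
  decide (y0 = y1) || decide (y0 = y2) || decide (y0 = y1 * y2) || !(chkB (y1 * y2))

theorem e8_no_aux : ∀ y0 : E8, chkA y0 = true → ∀ y1 : E8, chkB y1 = true → ∀ y2 : E8,
    chkB y2 = true → chkC y0 y1 y2 = true := by
  decide +kernel

theorem chkB_iff (y : E8) : chkB y = true ↔ (y.1 = 1 ∨ y = zE) := by
  unfold chkB
  rw [Bool.or_eq_true, decide_eq_true_iff, decide_eq_true_iff]

theorem e8_no (y0 y1 y2 : E8) (h1 : y0 ≠ 1) (h2 : y0.1 = 1) (h3 : y1 ≠ 1) (h4 : y2 ≠ 1)
    (h5 : y1 ≠ y2) (h6 : y0 ≠ y1) (h7 : y0 ≠ y2) (h8 : y0 ≠ y1 * y2) (h9 : y1.1 = 1 ∨ y1 = zE)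
    (h10 : y2.1 = 1 ∨ y2 = zE) (h11 : (y1 * y2).1 = 1 ∨ y1 * y2 = zE) : False := by
  have hA : chkA y0 = true := by simp [chkA, h1, h2]
  have h := e8_no_aux y0 hA y1 ((chkB_iff y1).mpr h9) y2 ((chkB_iff y2).mpr h10)
  unfold chkC at h
  rw [(chkB_iff (y1 * y2)).mpr h11] at h
  simp [h3, h4, h5, h6, h7, h8] at h

theorem zE_fst_ne : ¬ zE.1 = 1 := by decide
theorem gg1 : ((1, e1, 1) : E8) ≠ 1 := by decide
theorem gg2 : ((1, 1, e1) : E8) ≠ 1 := by decide
theorem gg12 : ((1, e1, 1) : E8) ≠ (1, 1, e1) := by decide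
theorem gg3 : ((1, e1, 1) : E8) * (1, 1, e1) ≠ 1 := by decide
theorem gg4 : ¬ zE = (1, e1, 1) := by decide
theorem gg5 : ¬ zE = (1, 1, e1) := by decide
theorem gg6 : ¬ zE = (1, e1, 1) * (1, 1, e1) := by decide

theorem sqf21 : Squarefree 21 := by
  have h : Squarefree (3 * 7) := (Nat.squarefree_mul (by norm_num)).mpr
    ⟨Nat.prime_three.prime.squarefree, (show Nat.Prime 7 by norm_num).prime.squarefree⟩
  exact h

section

variable {G : Type*} [Group G]

/-- The local structure. -/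
structure Loc (S : Subgroup G) : Prop where
  card : Nat.card S = 8
  sq : ∀ s ∈ S, s * s = 1
  norm : Nat.card (normalizer (S : Set G)) = 168
  cent : ∀ t : G, t * t = 1 → t ≠ 1 → Nat.card (centralizer ({t} : Set G)) = 24
  inv : ∀ t ∈ normalizer (S : Set G), t * t = 1 → t ∈ S
  se : Cfsg.IsStronglyEmbedded (normalizer (S : Set G))
  tr : ∀ s ∈ S, ∀ s' ∈ S, s ≠ 1 → s' ≠ 1 → ∃ a ∈ normalizer (S : Set G), a * s * a⁻¹ = s'
  selfc : ∀ g : G, (∀ s ∈ S, g * s = s * g) → g ∈ S

def EmbM.conj {m : ℕ} (E : EmbM m G) (g : G) : EmbM m G where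
  iota := (MulAut.conj g).toMonoidHom.comp E.iota
  inj := (MulAut.conj g).injective.comp E.inj
  cent := by
    intro x hx
    change x * (g * E.iota (e1, 1) * g⁻¹) = g * E.iota (e1, 1) * g⁻¹ * x at hx
    obtain ⟨y, hy⟩ := E.cent (g⁻¹ * x * g) (by
      have h2 : g⁻¹ * (x * (g * E.iota (e1, 1) * g⁻¹)) * g =
        g⁻¹ * (g * E.iota (e1, 1) * g⁻¹ * x) * g := by rw [hx]
      calc g⁻¹ * x * g * E.iota (e1, 1) = g⁻¹ * (x * (g * E.iota (e1, 1) * g⁻¹)) * g := by group
        _ = g⁻¹ * (g * E.iota (e1, 1) * g⁻¹ * x) * g := h2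
        _ = E.iota (e1, 1) * (g⁻¹ * x * g) := by group)
    refine ⟨y, ?_⟩
    change g * E.iota y * g⁻¹ = x
    rw [hy]; group

theorem EmbM.card4 (E : EmbM 4 G) : Nat.card (centralizer ({E.iota (e1, 1)} : Set G)) = 24 := by
  have hb : Function.Bijective (fun w : CA4 =>
      (⟨E.iota w, mem_centralizer_singleton_iff.mpr (E.comm w)⟩ :
        centralizer ({E.iota (e1, 1)} : Set G))) := by
    constructor
    · intro a b h
      exact E.inj (congrArg Subtype.val h)
    · rintro ⟨g, hg⟩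
      rw [mem_centralizer_singleton_iff] at hg
      obtain ⟨w, hw⟩ := E.cent g hg
      exact ⟨w, Subtype.ext hw⟩
  rw [← Nat.card_eq_of_bijective _ hb, Nat.card_eq_fintype_card, card_CA4]

variable [Finite G]

theorem four_loc (hns : ¬ Group.IsSolvable G) (E : EmbM 4 G)
    (hJ : Cfsg.IsTwoCentralInvolution (E.iota (e1, 1)))
    (hα : ∃ α : A4, IsConj (E.iota (e1, 1)) (E.iota (1, α))) :
    ∃ S : Subgroup G, Loc S := by
  classical
  have : Fact (Nat.Prime 2) := ⟨Nat.prime_two⟩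
  set J := E.iota (e1, 1) with hJdef
  have hJJ : J * J = 1 := E.J_sq
  have hJ1 : J ≠ 1 := E.J_ne
  have hcJ : Nat.card (centralizer ({J} : Set G)) = 24 := E.card4
  -- arithmetic
  have h16 : ¬ 16 ∣ Nat.card G := by
    obtain ⟨-, P, htP, hP⟩ := hJ
    intro h16
    have h1 : (P : Subgroup G) ≤ centralizer ({J} : Set G) := by
      intro x hx
      rw [mem_centralizer_singleton_iff]
      exact hP x hx
    have h2 := Subgroup.card_dvd_of_le h1
    rw [hcJ] at h2
    have h3 : 2 ^ 4 ∣ Nat.card P := P.pow_dvd_card_of_pow_dvd_card (n := 4) h16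
    exact absurd (h3.trans h2) (by norm_num)
  set S : Subgroup G := (E.iota.comp kap4).range with hS
  have hSmem : ∀ y : E8, E.iota (kap4 y) ∈ S := fun y => ⟨y, rfl⟩
  have hSinv : ∀ y : CA4, y * y = 1 → E.iota y ∈ S := by
    intro y hy
    obtain ⟨x, hx⟩ := kap4_surj y hy
    rw [← hx]; exact hSmem x
  have hinjS : Function.Injective (E.iota.comp kap4) := E.inj.comp kap4_inj
  have hcS : Nat.card S = 8 := by
    have : Nat.card S = Nat.card E8 :=
      (Nat.card_congr (MonoidHom.ofInjective hinjS).toEquiv).symm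
    rw [this, Nat.card_eq_fintype_card, card_E8]
  have hsq : ∀ s ∈ S, s * s = 1 := by
    rintro _ ⟨x, rfl⟩
    rw [← map_mul, e8_sq, map_one]
  have hScomm : ∀ a ∈ S, ∀ b ∈ S, a * b = b * a := by
    rintro _ ⟨x, rfl⟩ _ ⟨y, rfl⟩
    rw [← map_mul, ← map_mul, e8_comm]
  have hJS : J ∈ S := ⟨zE, by rw [MonoidHom.comp_apply, kap4_zE]; rfl⟩
  have h8 : 8 ∣ Nat.card G := by rw [← hcS]; exact card_subgroup_dvd_card S
  let P : Sylow 2 G := Sylow.ofCard S (by
    rw [hcS, fact_of_mod16 Nat.card_pos.ne' h8 h16]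
    norm_num)
  have hPS : (P : Subgroup G) = S := rfl
  set A := normalizer (S : Set G) with hA
  have hburn : ∀ x g : G, x ∈ S → g⁻¹ * x * g ∈ S → ∃ n ∈ A, g⁻¹ * x * g = n⁻¹ * x * n := by
    intro x g hx hg
    have hc : IsMulCommutative P := ⟨⟨fun a b => Subtype.ext (hScomm a a.2 b b.2)⟩⟩
    exact P.conj_eq_normalizer_conj_of_mem x g hx hg
  have hCA : ∀ c : G, c * J = J * c → c ∈ A := by
    intro c hc
    obtain ⟨y, rfl⟩ := E.cent c hc
    apply Cfsg.Agent.H60.mem_normalizer_of_conj_le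
    rintro _ ⟨x, rfl⟩
    change E.iota y * E.iota (kap4 x) * (E.iota y)⁻¹ ∈ S
    rw [← map_inv, ← map_mul, ← map_mul]
    apply hSinv
    have h1 : y * kap4 x * y⁻¹ * (y * kap4 x * y⁻¹) = y * (kap4 x * kap4 x) * y⁻¹ := by group
    rw [h1, ← map_mul, e8_sq, map_one, mul_one, mul_inv_cancel]
  have hAconj : ∀ a ∈ A, ∀ s ∈ S, a * s * a⁻¹ ∈ S := fun a ha s hs =>
    (Subgroup.mem_normalizer_iff.mp ha s).mp hs
  -- the orbit of `J`
  let O : E8 → Prop := fun y => ∃ a ∈ A, a * J * a⁻¹ = E.iota (kap4 y)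
  have hOorb : ∀ y : E8, y ≠ 1 → y ≠ zE → (O y ↔ O (y.1, e1, 1)) := by
    intro y h1 h2
    obtain ⟨j, hj⟩ := kap4_orbit y h1 h2
    have hnA : E.iota n3 ^ (j : ℕ) ∈ A := by
      apply pow_mem
      exact hCA _ (E.comm n3)
    have h3 : E.iota (kap4 y) * E.iota n3 ^ (j : ℕ) =
        E.iota n3 ^ (j : ℕ) * E.iota (kap4 (y.1, e1, 1)) := by
      rw [← map_pow, ← map_mul, ← map_mul]
      congr 1
    constructor
    · rintro ⟨a, ha, h⟩
      refine ⟨(E.iota n3 ^ (j : ℕ))⁻¹ * a, mul_mem (inv_mem hnA) ha, ?_⟩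
      calc (E.iota n3 ^ (j : ℕ))⁻¹ * a * J * ((E.iota n3 ^ (j : ℕ))⁻¹ * a)⁻¹ =
            (E.iota n3 ^ (j : ℕ))⁻¹ * (a * J * a⁻¹ * E.iota n3 ^ (j : ℕ)) := by group
        _ = (E.iota n3 ^ (j : ℕ))⁻¹ * (E.iota n3 ^ (j : ℕ) * E.iota (kap4 (y.1, e1, 1))) := by
          rw [h, h3]
        _ = _ := by group
    · rintro ⟨a, ha, h⟩
      refine ⟨E.iota n3 ^ (j : ℕ) * a, mul_mem hnA ha, ?_⟩
      calc E.iota n3 ^ (j : ℕ) * a * J * (E.iota n3 ^ (j : ℕ) * a)⁻¹ =
            E.iota n3 ^ (j : ℕ) * (a * J * a⁻¹) * (E.iota n3 ^ (j : ℕ))⁻¹ := by group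
        _ = E.iota (kap4 y) * E.iota n3 ^ (j : ℕ) * (E.iota n3 ^ (j : ℕ))⁻¹ := by
          rw [h, ← h3]
        _ = _ := by group
  obtain ⟨a0, ha0, y0, hy01, hy0f, ha0J⟩ : ∃ a ∈ A, ∃ y0 : E8, y0 ≠ 1 ∧ y0.1 = 1 ∧
      a * J * a⁻¹ = E.iota (kap4 y0) := by
    obtain ⟨α, h⟩ := hα
    obtain ⟨g, hg⟩ := isConj_iff.mp h
    have hαα : ((1, α) : CA4) * (1, α) = 1 := by
      apply E.inj
      rw [map_mul, ← hg, map_one]
      have : g * J * g⁻¹ * (g * J * g⁻¹) = g * (J * J) * g⁻¹ := by group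
      rw [this, hJJ, mul_one, mul_inv_cancel]
    obtain ⟨y0, hy0⟩ := kap4_surj _ hαα
    have hy0' : kap4 y0 = (1, α) := hy0
    obtain ⟨n, hn, hn2⟩ := hburn J g⁻¹ hJS (by
      rw [inv_inv, hg, ← hy0']; exact hSmem y0)
    rw [inv_inv, hg, ← hy0'] at hn2
    refine ⟨n⁻¹, inv_mem hn, y0, ?_, ?_, ?_⟩
    · rintro rfl
      rw [map_one, map_one] at hn2
      apply hJ1
      calc J = n * (n⁻¹ * J * n) * n⁻¹ := by group
        _ = n * 1 * n⁻¹ := by rw [← hn2]
        _ = 1 := by group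
    · have := congrArg Prod.fst hy0'
      exact this
    · rw [inv_inv, hn2]
  have hO0 : O y0 := ⟨a0, ha0, ha0J⟩
  have hy0z : y0 ≠ zE := by
    rintro rfl
    exact zE_fst_ne hy0f
  have hO1 : O (1, e1, 1) := by
    rw [hOorb y0 hy01 hy0z, hy0f] at hO0
    exact hO0
  have hO2 : ∀ y : E8, y ≠ 1 → y.1 = 1 → O y := by
    intro y h1 h2
    rw [hOorb y h1 (by rintro rfl; exact zE_fst_ne h2), h2]
    exact hO1
  have hO3 : O (e1, e1, 1) := by
    by_contra hno
    -- the orbit is `{J} ∪ V#`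
    have hO4 : ∀ y : E8, O y → y.1 = 1 ∨ y = zE := by
      intro y hy
      by_cases hz : y = zE
      · right; exact hz
      have hy1 : y ≠ 1 := by
        rintro rfl
        obtain ⟨a, -, ha⟩ := hy
        rw [map_one, map_one, mul_inv_eq_one] at ha
        exact hJ1 (mul_left_cancel (ha.trans (mul_one a).symm))
      rw [hOorb y hy1 hz] at hy
      rcases m2_cases y.1 with h | h
      · left; exact h
      · rw [h] at hy
        exact absurd hy hno
    have hex : ∀ y : E8, ∃ y' : E8, E.iota (kap4 y') = a0 * E.iota (kap4 y) * a0⁻¹ := by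
      intro y
      exact hAconj a0 ha0 _ (hSmem y)
    choose f hf using hex
    have hfinj : ∀ x y, f x = f y → x = y := by
      intro x y h
      have h1 := hf x
      rw [h, hf y] at h1
      have h2 := mul_left_cancel (mul_right_cancel h1)
      exact (kap4_inj (E.inj h2)).symm
    have hfmul : ∀ x y, f (x * y) = f x * f y := by
      intro x y
      apply kap4_inj
      apply E.inj
      rw [hf, map_mul, map_mul, map_mul, map_mul, hf, hf]
      group
    have hf1 : f 1 = 1 := by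
      have := hfmul 1 1
      rw [mul_one] at this
      exact (mul_eq_left.1 this.symm)
    have hfO : ∀ y, O y → O (f y) := by
      rintro y ⟨a, ha, h⟩
      refine ⟨a0 * a, mul_mem ha0 ha, ?_⟩
      rw [hf, ← h]
      group
    have hfz : f zE = y0 := by
      apply kap4_inj
      apply E.inj
      rw [hf, kap4_zE, ← ha0J]
      rfl
    have g1 := gg1
    have g2 := gg2
    have g12 := gg12
    have g3 := gg3
    apply e8_no y0 (f (1, e1, 1)) (f (1, 1, e1)) hy01 hy0f
    · intro h; exact g1 (hfinj _ _ (h.trans hf1.symm))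
    · intro h; exact g2 (hfinj _ _ (h.trans hf1.symm))
    · intro h; exact g12 (hfinj _ _ h)
    · intro h
      rw [← hfz] at h
      exact gg4 (hfinj _ _ h)
    · intro h
      rw [← hfz] at h
      exact gg5 (hfinj _ _ h)
    · intro h
      rw [← hfz, ← hfmul] at h
      exact gg6 (hfinj _ _ h)
    · exact hO4 _ (hfO _ (hO2 _ g1 rfl))
    · exact hO4 _ (hfO _ (hO2 _ g2 rfl))
    · rw [← hfmul]
      exact hO4 _ (hfO _ (hO2 _ g3 rfl))
  have hOall : ∀ y : E8, y ≠ 1 → O y := by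
    intro y hy
    by_cases hz : y = zE
    · exact ⟨1, one_mem _, by rw [hz, kap4_zE]; change 1 * J * 1⁻¹ = J; group⟩
    · rw [hOorb y hy hz]
      rcases m2_cases y.1 with h | h
      · rw [h]; exact hO1
      · rw [h]; exact hO3
  have hSO : ∀ s ∈ S, s ≠ 1 → ∃ a ∈ A, a * J * a⁻¹ = s := by
    rintro _ ⟨y, rfl⟩ hs
    apply hOall
    rintro rfl
    exact hs (map_one _)
  have htr : ∀ s ∈ S, ∀ s' ∈ S, s ≠ 1 → s' ≠ 1 → ∃ a ∈ A, a * s * a⁻¹ = s' := by
    intro s hs s' hs' h1 h1'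
    obtain ⟨a, ha, rfl⟩ := hSO s hs h1
    obtain ⟨b, hb, rfl⟩ := hSO s' hs' h1'
    exact ⟨b * a⁻¹, mul_mem hb (inv_mem ha), by group⟩
  -- the order of `A`
  have hcA : Nat.card A = 168 := by
    let X := {y : E8 // y ≠ 1}
    set D : Subgroup A := (centralizer ({J} : Set G)).subgroupOf A with hD
    have hne : ∀ n : A, (n : G) * J * (n : G)⁻¹ ≠ 1 := by
      intro n h
      rw [mul_inv_eq_one] at h
      exact hJ1 (mul_left_cancel (h.trans (mul_one (n : G)).symm))
    have hex : ∀ n : A, ∃ y : E8, E.iota (kap4 y) = n * J * (n : G)⁻¹ := fun n =>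
      hAconj n n.2 J hJS
    choose f hf using hex
    let F : A → X := fun n => ⟨f n, by
      intro h
      have := hf n
      rw [h, map_one, map_one] at this
      exact hne n this.symm⟩
    have hFD : ∀ n m : A, F n = F m ↔ n⁻¹ * m ∈ D := by
      intro n m
      have h1 : F n = F m ↔ (n : G) * J * (n : G)⁻¹ = m * J * (m : G)⁻¹ := by
        constructor
        · intro h
          have h2 : f n = f m := congrArg Subtype.val h
          rw [← hf n, ← hf m, h2]
        · intro h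
          apply Subtype.ext
          apply kap4_inj
          apply E.inj
          change E.iota (kap4 (f n)) = E.iota (kap4 (f m))
          rw [hf, hf, h]
      rw [h1]
      change _ ↔ ((n⁻¹ * m : A) : G) ∈ centralizer ({J} : Set G)
      rw [mem_centralizer_singleton_iff]
      push_cast
      constructor
      · intro h
        have h3 : (n : G)⁻¹ * ((n : G) * J * (n : G)⁻¹) * m =
            (n : G)⁻¹ * (m * J * (m : G)⁻¹) * m := by rw [h]
        calc (n : G)⁻¹ * m * J = (n : G)⁻¹ * (m * J * (m : G)⁻¹) * m := by group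
          _ = (n : G)⁻¹ * ((n : G) * J * (n : G)⁻¹) * m := h3.symm
          _ = J * ((n : G)⁻¹ * m) := by group
      · intro h
        calc (n : G) * J * (n : G)⁻¹ = (n : G) * (J * ((n : G)⁻¹ * m)) * (m : G)⁻¹ := by group
          _ = (n : G) * ((n : G)⁻¹ * m * J) * (m : G)⁻¹ := by rw [h]
          _ = m * J * (m : G)⁻¹ := by group
    have hFs : Function.Surjective F := by
      rintro ⟨y, hy⟩
      obtain ⟨a, ha, h⟩ := hOall y hy
      refine ⟨⟨a, ha⟩, ?_⟩
      apply Subtype.ext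
      apply kap4_inj
      apply E.inj
      change E.iota (kap4 (f _)) = E.iota (kap4 y)
      rw [hf]
      exact h
    have hcard : Nat.card X = D.index := by
      have hb : Function.Bijective (fun q : A ⧸ D => Quotient.liftOn' q F (fun a b h => by
          rw [QuotientGroup.leftRel_apply] at h
          exact (hFD a b).mpr h)) := by
        constructor
        · intro a b
          induction a using QuotientGroup.induction_on with
          | H a =>
            induction b using QuotientGroup.induction_on with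
            | H b =>
              intro h
              exact QuotientGroup.eq.mpr ((hFD a b).mp h)
        · intro x
          obtain ⟨n, hn⟩ := hFs x
          exact ⟨(n : A ⧸ D), hn⟩
      exact (Nat.card_eq_of_bijective _ hb).symm
    have h1 := D.card_mul_index
    have h2 : Nat.card D = 24 := by
      rw [hD, ← hcJ]
      apply Nat.card_congr
      exact (Subgroup.subgroupOfEquivOfLe (fun c hc => hCA c
        (mem_centralizer_singleton_iff.mp hc))).toEquiv
    have h3 : Nat.card X = 7 := by rw [Nat.card_eq_fintype_card]; exact e8_count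
    rw [h2, ← hcard, h3] at h1
    exact h1.symm
  -- involutions of `A`
  have hinv : ∀ t ∈ A, t * t = 1 → t ∈ S := by
    intro t ht htt
    have h1 : IsPGroup 2 (zpowers t) := by
      by_cases ht1 : t = 1
      · rw [ht1, zpowers_one_eq_bot]; exact IsPGroup.of_bot
      · apply IsPGroup.of_card (n := 1)
        rw [Nat.card_zpowers, orderOf_eq_prime (by rw [pow_two]; exact htt) ht1, pow_one]
    have h2 : IsPGroup 2 (zpowers t ⊔ S : Subgroup G) := by
      apply IsPGroup.to_sup_of_normal_right' h1 (P.2 : IsPGroup 2 S)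
      rw [zpowers_le]
      exact ht
    have h3 : zpowers t ⊔ S = S := P.3 h2 le_sup_right
    rw [← h3]
    exact (le_sup_left : zpowers t ≤ zpowers t ⊔ S) (mem_zpowers t)
  have hAtop : A ≠ ⊤ := by
    intro hAt
    apply hns
    have hSn : S.Normal := Subgroup.normalizer_eq_top_iff.mp hAt
    have hcG : Nat.card G = 168 := by rw [← hcA, hAt, Subgroup.card_top]
    have hq : Nat.card (G ⧸ S) = 21 := by
      have := Subgroup.card_eq_card_quotient_mul_card_subgroup S
      rw [hcG, hcS] at this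
      omega
    have hZ : IsZGroup (G ⧸ S) := by
      apply IsZGroup.of_squarefree
      rw [hq]
      exact sqf21
    have hs1 : Group.IsSolvable (G ⧸ S) := inferInstance
    have hs2 : Group.IsSolvable S := by
      apply Group.isSolvable_of_comm
      intro a b
      exact Subtype.ext (hScomm a a.2 b b.2)
    exact Group.isSolvable_of_ker_le_range S.subtype (QuotientGroup.mk' S)
      (by rw [QuotientGroup.ker_mk', Subgroup.range_subtype])
  have heven : Even (Nat.card A) := by rw [hcA]; decide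
  have hconjS : ∀ t : G, t * t = 1 → t ≠ 1 → ∃ g : G, g * t * g⁻¹ ∈ S := by
    intro t ht ht1
    have h1 : IsPGroup 2 (zpowers t) := by
      apply IsPGroup.of_card (n := 1)
      rw [Nat.card_zpowers, orderOf_eq_prime (by rw [pow_two]; exact ht) ht1, pow_one]
    obtain ⟨Q, hQ⟩ := h1.exists_le_sylow
    obtain ⟨g, hg⟩ := MulAction.exists_smul_eq G Q P
    refine ⟨g, ?_⟩
    have h2 : g * t * g⁻¹ ∈ (P : Subgroup G) := by
      rw [← hg, Sylow.coe_subgroup_smul, Subgroup.mem_pointwise_smul_iff_inv_smul_mem, ← map_inv,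
        MulAut.smul_def, MulAut.conj_apply]
      have : g⁻¹ * (g * t * g⁻¹) * g⁻¹⁻¹ = t := by group
      rw [this]
      exact hQ (mem_zpowers t)
    exact h2
  have hself : ∀ g : G, (∀ s ∈ S, g * s = s * g) → g ∈ S := by
    intro g hg
    obtain ⟨y, rfl⟩ := E.cent g (hg J hJS)
    obtain ⟨x, hx⟩ := kap4_self y (fun x => by
      have h1 := hg _ (hSmem x)
      rw [← map_mul, ← map_mul] at h1
      exact E.inj h1)
    rw [← hx]
    exact hSmem x
  refine ⟨S, hcS, hsq, hcA, ?_, hinv, ?_, htr, hself⟩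
  · intro t ht ht1
    obtain ⟨g, hg⟩ := hconjS t ht ht1
    obtain ⟨a, ha, h⟩ := hSO _ hg (by
      intro h
      rw [mul_inv_eq_one] at h
      exact ht1 (mul_left_cancel (h.trans (mul_one g).symm)))
    have h1 : (E.conj (g⁻¹ * a)).iota (e1, 1) = t := by
      change g⁻¹ * a * J * (g⁻¹ * a)⁻¹ = t
      calc g⁻¹ * a * J * (g⁻¹ * a)⁻¹ = g⁻¹ * (a * J * a⁻¹) * g := by group
        _ = t := by rw [h]; group
    rw [← h1]
    exact EmbM.card4 _
  · rw [Cfsg.Agent.H80.stronglyEmbedded_iff hAtop heven]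
    intro t ht ht2 g hg
    have htt : t * t = 1 := by rw [← pow_two, ← ht2]; exact pow_orderOf_eq_one t
    have ht1 : t ≠ 1 := by
      rintro rfl
      rw [orderOf_one] at ht2
      omega
    have h1 : t ∈ S := hinv t ht htt
    have h2 : g⁻¹ * t * g ∈ S := by
      apply hinv _ hg
      calc g⁻¹ * t * g * (g⁻¹ * t * g) = g⁻¹ * (t * t) * g := by group
        _ = 1 := by rw [htt]; group
    obtain ⟨a, ha, h3⟩ := hSO t h1 ht1
    obtain ⟨b, hb, h4⟩ := hSO _ h2 (by
      intro h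
      apply ht1
      calc t = g * (g⁻¹ * t * g) * g⁻¹ := by group
        _ = 1 := by rw [h]; group)
    have h5 : a⁻¹ * g * b * J = J * (a⁻¹ * g * b) := by
      calc a⁻¹ * g * b * J = a⁻¹ * g * (b * J * b⁻¹) * b := by group
        _ = a⁻¹ * g * (g⁻¹ * t * g) * b := by rw [h4]
        _ = a⁻¹ * t * g * b := by group
        _ = a⁻¹ * (a * J * a⁻¹) * g * b := by rw [h3]
        _ = _ := by group
    have h6 := hCA _ h5
    have h7 : g = a * (a⁻¹ * g * b) * b⁻¹ := by group
    rw [h7]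
    exact mul_mem (mul_mem ha h6) (inv_mem hb)

end

end Cfsg.Agent.JV
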