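import Cfsg.Agent.JV.Four1
import Cfsg.Agent.H60.Gen2
import Cfsg.Agent.H60.Gen3
import Cfsg.Agent.JU.Five
import Cfsg.Agent.StrEmb.Basic

/-! The case `m = 4`: counting. -/

set_option autoImplicit false

namespace Cfsg.Agent.JV

open Cfsg Subgroup Cfsg.Agent.JC Cfsg.Agent.H60

theorem card_ne_one {K : Type*} [Group K] [Finite K] : Nat.card {x : K // x ≠ 1} + 1 = Nat.card K := by
  classical
  have := Fintype.ofFinite K
  have h := Set.card_ne_eq (1 : K)
  rw [Nat.card_eq_fintype_card, Nat.card_eq_fintype_card]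
  have h2 : Fintype.card {x : K // x ≠ 1} = Fintype.card {x : K | x ≠ 1} :=
    Fintype.card_congr (Equiv.refl _)
  rw [h2, h]
  have : 0 < Fintype.card K := Fintype.card_pos
  omega

theorem divs168 : ∀ m < 169, m ∣ 168 → m % 2 = 1 → 7 ≤ m → m = 7 ∨ m = 21 := by decide +kernel

theorem divs24 : ∀ m < 25, m ∣ 24 → m % 7 = 1 → m = 1 ∨ m = 8 := by decide +kernel

theorem ord3 : ∀ k : Fin 7, (k : ℕ) ^ 3 % 7 = 1 → (k : ℕ) ≠ 1 →
    ((k : ℕ) : ZMod 7) ^ 3 = 1 ∧ ((k : ℕ) : ZMod 7) ≠ 1 := by decide +kernel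

section

variable {G : Type*} [Group G] [Finite G]

theorem mem_norm_iff (g q : G) :
    g ∈ normalizer (zpowers q : Set G) ↔ g * q * g⁻¹ ∈ zpowers q := by
  constructor
  · intro h
    exact (mem_normalizer_zpowers.mp h q).mp (mem_zpowers q)
  · intro h
    apply mem_normalizer_of_conj_le
    rintro _ ⟨m, rfl⟩
    change g * q ^ m * g⁻¹ ∈ _
    rw [← conj_zpow]
    exact zpow_mem h m

theorem uniq7 {K : Subgroup G} {q y : G} (hK : K ≤ normalizer (zpowers q : Set G))
    (hq : orderOf q = 7) (hqK : q ∈ K) (hy : orderOf y = 7) (hyK : y ∈ K)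
    (h49 : ¬ 49 ∣ Nat.card K) : y ∈ zpowers q := by
  have : Fact (Nat.Prime 7) := ⟨by norm_num⟩
  have h1 : IsPGroup 7 (zpowers q) := IsPGroup.of_card (n := 1) (by
    rw [Nat.card_zpowers, hq, pow_one])
  have h2 : IsPGroup 7 (zpowers y) := IsPGroup.of_card (n := 1) (by
    rw [Nat.card_zpowers, hy, pow_one])
  have h3 : IsPGroup 7 (zpowers y ⊔ zpowers q : Subgroup G) := by
    apply IsPGroup.to_sup_of_normal_right' h2 h1
    rw [zpowers_le]
    exact hK hyK
  obtain ⟨n, hn⟩ := IsPGroup.iff_card.mp h3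
  have h4 : (zpowers y ⊔ zpowers q : Subgroup G) ≤ K := by
    rw [sup_le_iff, zpowers_le, zpowers_le]
    exact ⟨hyK, hqK⟩
  have h5 := Subgroup.card_dvd_of_le h4
  rw [hn] at h5
  have h6 : n ≤ 1 := by
    by_contra h
    push Not at h
    exact h49 ((pow_dvd_pow 7 h).trans h5)
  have h7 : zpowers q = zpowers y ⊔ zpowers q := by
    apply Subgroup.eq_of_le_of_card_ge le_sup_right
    rw [hn, Nat.card_zpowers, hq]
    calc 7 ^ n ≤ 7 ^ 1 := Nat.pow_le_pow_right (by norm_num) h6
      _ = 7 := by norm_num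
  rw [h7]
  exact (le_sup_left : zpowers y ≤ zpowers y ⊔ zpowers q) (mem_zpowers y)

variable {S : Subgroup G}

theorem Loc.no7 (L : Loc S) {q t : G} (hq : orderOf q = 7) (ht : t * t = 1) (ht1 : t ≠ 1) :
    q * t ≠ t * q := by
  intro h
  have h1 := orderOf_dvd_centralizer_of_commute h
  rw [hq, L.cent t ht ht1] at h1
  omega

theorem Loc.conj_mem (L : Loc S) {a s : G} (ha : a ∈ normalizer (S : Set G)) (hs : s ∈ S) :
    a * s * a⁻¹ ∈ S := (Subgroup.mem_normalizer_iff.mp ha s).mp hs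

theorem Loc.count (L : Loc S) :
    Nat.card {t : G // orderOf t = 2 ∧ t ∈ normalizer (S : Set G)} = 7 := by
  have : Fact (Nat.Prime 2) := ⟨Nat.prime_two⟩
  have h1 : Nat.card {t : G // orderOf t = 2 ∧ t ∈ normalizer (S : Set G)} =
      Nat.card {x : S // x ≠ 1} := by
    have key : ∀ t : G, orderOf t = 2 ∧ t ∈ normalizer (S : Set G) → t ∈ S ∧ t ≠ 1 := by
      rintro t ⟨h1, h2⟩
      refine ⟨L.inv t h2 (by rw [← pow_two, ← h1]; exact pow_orderOf_eq_one t), ?_⟩
      rintro rfl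
      rw [orderOf_one] at h1
      omega
    have key2 : ∀ x : S, x ≠ 1 → orderOf (x : G) = 2 ∧ (x : G) ∈ normalizer (S : Set G) := by
      intro x hx
      refine ⟨orderOf_eq_prime (by rw [pow_two]; exact L.sq x x.2) (fun h => hx (Subtype.ext h)),
        Subgroup.le_normalizer x.2⟩
    exact Nat.card_congr
      { toFun := fun t => ⟨⟨t, (key t t.2).1⟩, fun h => (key t t.2).2 (congrArg Subtype.val h)⟩
        invFun := fun x => ⟨x, key2 x x.2⟩
        left_inv := fun t => rfl
        right_inv := fun x => rfl }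
  have h2 := card_ne_one (K := S)
  rw [L.card] at h2
  omega

theorem Loc.D_card (L : Loc S) {u : G} (hu : orderOf u = 2)
    (huA : u ∉ normalizer (S : Set G)) :
    Nat.card ↥(normalizer (S : Set G) ⊓
      (normalizer (S : Set G)).map (MulAut.conj u).toMonoidHom) = 7 ∨
    Nat.card ↥(normalizer (S : Set G) ⊓
      (normalizer (S : Set G)).map (MulAut.conj u).toMonoidHom) = 21 := by
  set D := normalizer (S : Set G) ⊓ (normalizer (S : Set G)).map (MulAut.conj u).toMonoidHom
    with hD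
  have h1 : Odd (Nat.card D) := L.se.2.2 u huA
  have h2 : Nat.card D ∣ 168 := by
    rw [← L.norm]
    exact Subgroup.card_dvd_of_le inf_le_left
  have h3 : 7 ≤ Nat.card D := by
    rw [← L.count, ← Cfsg.Agent.StrEmb.card_inverted L.se hu huA]
    apply Nat.card_le_card_of_injective
      (fun d : {d : G // d ∈ D ∧ u * d * u⁻¹ = d⁻¹} => (⟨d, d.2.1⟩ : D))
    intro a b hab
    exact Subtype.ext (congrArg (fun x : D => (x : G)) hab)
  have h4 : Nat.card D ≤ 168 := Nat.le_of_dvd (by norm_num) h2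
  exact divs168 _ (by omega) h2 (Nat.odd_iff.mp h1) h3

theorem Loc.exists7 (L : Loc S) {u : G} (hu : orderOf u = 2)
    (huA : u ∉ normalizer (S : Set G)) :
    ∃ q ∈ (normalizer (S : Set G) ⊓
      (normalizer (S : Set G)).map (MulAut.conj u).toMonoidHom), orderOf q = 7 := by
  have : Fact (Nat.Prime 7) := ⟨by norm_num⟩
  have h1 := L.D_card hu huA
  obtain ⟨⟨q, hqD⟩, hq⟩ := exists_prime_orderOf_dvd_card' (G := ↥(normalizer (S : Set G) ⊓
      (normalizer (S : Set G)).map (MulAut.conj u).toMonoidHom)) 7 (by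
    rcases h1 with h1 | h1
    · rw [h1]
    · rw [h1]; norm_num)
  rw [Subgroup.orderOf_mk] at hq
  exact ⟨q, hqD, hq⟩

theorem Loc.inverts (L : Loc S) {u q : G} (hu : orderOf u = 2)
    (huA : u ∉ normalizer (S : Set G)) (hq : orderOf q = 7)
    (hqD : q ∈ (normalizer (S : Set G) ⊓
      (normalizer (S : Set G)).map (MulAut.conj u).toMonoidHom)) : u * q * u⁻¹ = q⁻¹ := by
  set A := normalizer (S : Set G) with hA
  set D := A ⊓ A.map (MulAut.conj u).toMonoidHom with hD
  have hc := L.D_card hu huA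
  have huu : u * u = 1 := by rw [← pow_two, ← hu]; exact pow_orderOf_eq_one u
  have hui : u⁻¹ = u := inv_eq_of_mul_eq_one_left huu
  have hu1 : u ≠ 1 := by
    rintro rfl
    rw [orderOf_one] at hu
    omega
  have hmem : ∀ x, x ∈ D ↔ x ∈ A ∧ u * x * u⁻¹ ∈ A := by
    intro x
    rw [hD, Subgroup.mem_inf]
    constructor
    · rintro ⟨h1, y, hy, rfl⟩
      refine ⟨h1, ?_⟩
      have : u * (MulAut.conj u).toMonoidHom y * u⁻¹ = y := by
        change u * (u * y * u⁻¹) * u⁻¹ = y
        rw [hui]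
        calc u * (u * y * u) * u = (u * u) * y * (u * u) := by group
          _ = y := by rw [huu, one_mul, mul_one]
      rw [this]; exact hy
    · rintro ⟨h1, h2⟩
      refine ⟨h1, u * x * u⁻¹, h2, ?_⟩
      change u * (u * x * u⁻¹) * u⁻¹ = x
      rw [hui]
      calc u * (u * x * u) * u = (u * u) * x * (u * u) := by group
        _ = x := by rw [huu, one_mul, mul_one]
  have hqD' := (hmem q).mp hqD
  have huqD : u * q * u⁻¹ ∈ D := by
    rw [hmem]
    refine ⟨hqD'.2, ?_⟩
    have : u * (u * q * u⁻¹) * u⁻¹ = q := by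
      rw [hui]
      calc u * (u * q * u) * u = (u * u) * q * (u * u) := by group
        _ = q := by rw [huu, one_mul, mul_one]
    rw [this]
    exact hqD'.1
  have h49 : ¬ 49 ∣ Nat.card D := by
    rcases hc with h | h
    · rw [h]; norm_num
    · rw [h]; norm_num
  have hnorm : D ≤ normalizer (zpowers q : Set G) := by
    apply le_normalizer_of_count (by norm_num : Nat.Prime 7) hqD hq h49
    intro d hd1 hd2
    have h1 : d ≤ 3 := by
      rcases hc with h | h
      · rw [h] at hd1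
        have := Nat.le_of_dvd (by norm_num) hd1
        omega
      · rw [h] at hd1
        have := Nat.le_of_dvd (by norm_num) hd1
        omega
    interval_cases d <;> omega
  have h1 : u * q * u⁻¹ ∈ zpowers q := by
    apply uniq7 hnorm hq hqD _ huqD h49
    rw [Cfsg.Agent.StrEmb.orderOf_conj, hq]
  have hq7 : q ^ 7 = 1 := by rw [← hq]; exact pow_orderOf_eq_one q
  obtain ⟨k, hk7, hk⟩ : ∃ k, k < 7 ∧ q ^ k = u * q * u⁻¹ := by
    rw [mem_zpowers_iff] at h1
    obtain ⟨m, hm⟩ := h1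
    refine ⟨(m % 7).toNat, ?_, ?_⟩
    · have := Int.emod_lt_of_pos m (by norm_num : (0 : ℤ) < 7)
      omega
    · rw [← hm]
      have h2 : (((m % 7).toNat : ℕ) : ℤ) = m % 7 :=
        Int.toNat_of_nonneg (Int.emod_nonneg m (by norm_num))
      rw [← zpow_natCast, h2]
      have h3 : m = m % 7 + 7 * (m / 7) := by omega
      conv_rhs => rw [h3, zpow_add, zpow_mul]
      have h5 : q ^ (7 : ℤ) = 1 := by exact_mod_cast hq7
      rw [h5, one_zpow, mul_one]
  have h2 : q ^ (k * k) = q ^ 1 := by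
    rw [pow_mul, hk, conj_pow, hk, pow_one]
    rw [hui]
    calc u * (u * q * u) * u = (u * u) * q * (u * u) := by group
      _ = q := by rw [huu, one_mul, mul_one]
  rw [pow_eq_pow_iff_modEq, hq] at h2
  have h3 : k = 1 ∨ k = 6 := by
    have h4 : k * k % 7 = 1 % 7 := h2
    interval_cases k <;> omega
  rcases h3 with rfl | rfl
  · exfalso
    rw [pow_one] at hk
    apply L.no7 hq huu hu1
    nth_rewrite 1 [hk]
    group
  · rw [← hk]
    apply eq_inv_of_mul_eq_one_left
    rw [← pow_succ, hq7]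

theorem Loc.trans7 (L : Loc S) {q : G} (hqA : q ∈ normalizer (S : Set G)) (hq : orderOf q = 7)
    {s t : G} (hs : s ∈ S) (hs1 : s ≠ 1) (ht : t ∈ S) (ht1 : t ≠ 1) :
    ∃ d ∈ zpowers q, d * s * d⁻¹ = t := by
  classical
  have : Fact (Nat.Prime 7) := ⟨by norm_num⟩
  have hconj : ∀ d : zpowers q, (d : G) * s * (d : G)⁻¹ ∈ S := by
    rintro ⟨d, m, rfl⟩
    exact L.conj_mem (zpow_mem hqA m) hs
  have hne : ∀ d : zpowers q, (d : G) * s * (d : G)⁻¹ ≠ 1 := by
    intro d h
    rw [mul_inv_eq_one] at h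
    exact hs1 (mul_left_cancel (h.trans (mul_one (d : G)).symm))
  let f : zpowers q → {x : S // x ≠ 1} := fun d =>
    ⟨⟨(d : G) * s * (d : G)⁻¹, hconj d⟩, fun h => hne d (congrArg Subtype.val h)⟩
  have hinj : Function.Injective f := by
    intro a b hab
    have h1 : (a : G) * s * (a : G)⁻¹ = b * s * (b : G)⁻¹ :=
      congrArg (fun x : {x : S // x ≠ 1} => ((x : S) : G)) hab
    have h2 : ((b : G)⁻¹ * a) * s = s * ((b : G)⁻¹ * a) := by
      calc ((b : G)⁻¹ * a) * s = (b : G)⁻¹ * (a * s * (a : G)⁻¹) * a := by group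
        _ = (b : G)⁻¹ * (b * s * (b : G)⁻¹) * a := by rw [h1]
        _ = _ := by group
    by_contra hne'
    have h3 : (b : G)⁻¹ * a ≠ 1 := by
      intro h
      apply hne'
      apply Subtype.ext
      rw [inv_mul_eq_one] at h
      exact h.symm
    have h4 : orderOf ((b : G)⁻¹ * a) = 7 := by
      have h5 : (b : G)⁻¹ * a ∈ zpowers q := mul_mem (inv_mem b.2) a.2
      have h6 := Subgroup.orderOf_dvd_natCard _ h5
      rw [Nat.card_zpowers q, hq] at h6
      rcases (Nat.dvd_prime (by norm_num : Nat.Prime 7)).mp h6 with h7 | h7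
      · rw [orderOf_eq_one_iff] at h7
        exact absurd h7 h3
      · exact h7
    exact L.no7 h4 (L.sq s hs) hs1 h2
  have hcard : Nat.card (zpowers q) = Nat.card {x : S // x ≠ 1} := by
    have h2 := card_ne_one (K := S)
    rw [L.card] at h2
    rw [Nat.card_zpowers, hq]
    omega
  have hb := (Nat.bijective_iff_injective_and_card f).mpr ⟨hinj, hcard⟩
  obtain ⟨d, hd⟩ := hb.2 ⟨⟨t, ht⟩, fun h => ht1 (congrArg Subtype.val h)⟩
  exact ⟨d, d.2, congrArg (fun x : {x : S // x ≠ 1} => ((x : S) : G)) hd⟩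

/-- The centraliser in `A` of an element of order `7`. -/
theorem Loc.cA (L : Loc S) {q h : G} (hqA : q ∈ normalizer (S : Set G)) (hq : orderOf q = 7)
    (hhA : h ∈ normalizer (S : Set G)) (hh : h * q = q * h) : h ∈ zpowers q := by
  have : Fact (Nat.Prime 7) := ⟨by norm_num⟩
  obtain ⟨⟨s, hs⟩, hs1⟩ : ∃ s : S, s ≠ 1 := by
    have : Nontrivial S := by
      rw [← Finite.one_lt_card_iff_nontrivial, L.card]; norm_num
    exact exists_ne 1
  have hs1' : s ≠ 1 := fun h => hs1 (Subtype.ext h)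
  have h1 := L.conj_mem hhA hs
  obtain ⟨d, hd, hds⟩ := L.trans7 hqA hq hs hs1' h1 (by
    intro h2
    rw [mul_inv_eq_one] at h2
    exact hs1' (mul_left_cancel (h2.trans (mul_one h).symm)))
  obtain ⟨m, rfl⟩ := hd
  have hds' : q ^ m * s * (q ^ m)⁻¹ = h * s * h⁻¹ := hds
  have hcom : Commute h q := hh
  -- `(q ^ m)⁻¹ * h` centralises `S`
  have h2 : (q ^ m)⁻¹ * h ∈ S := by
    apply L.selfc
    intro t ht
    by_cases ht1 : t = 1
    · rw [ht1, mul_one, one_mul]
    obtain ⟨e, he, hes⟩ := L.trans7 hqA hq hs hs1' ht ht1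
    obtain ⟨k, rfl⟩ := he
    have hes' : q ^ k * s * (q ^ k)⁻¹ = t := hes
    have c1 : Commute ((q ^ m)⁻¹ * h) (q ^ k) := by
      apply Commute.mul_left
      · exact ((Commute.refl q).zpow_zpow m k).inv_left
      · exact hcom.zpow_right k
    have h3 : ((q ^ m)⁻¹ * h) * s = s * ((q ^ m)⁻¹ * h) := by
      calc ((q ^ m)⁻¹ * h) * s = (q ^ m)⁻¹ * (h * s * h⁻¹) * h := by group
        _ = (q ^ m)⁻¹ * (q ^ m * s * (q ^ m)⁻¹) * h := by rw [hds']
        _ = _ := by group
    rw [← hes']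
    have c2 : Commute ((q ^ m)⁻¹ * h) s := h3
    exact ((c1.mul_right c2).mul_right c1.inv_right).eq
  have h3 : ((q ^ m)⁻¹ * h) * q = q * ((q ^ m)⁻¹ * h) := by
    have : Commute ((q ^ m)⁻¹ * h) q :=
      Commute.mul_left ((Commute.refl q).zpow_left m).inv_left hcom
    exact this.eq
  have h4 : (q ^ m)⁻¹ * h = 1 := by
    by_contra h5
    exact L.no7 hq (L.sq _ h2) h5 h3.symm
  have h5 : h = q ^ m := (inv_mul_eq_one.mp h4).symm
  rw [h5]
  exact ⟨m, rfl⟩

theorem Loc.card_NA (L : Loc S) {q : G} (hqA : q ∈ normalizer (S : Set G))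
    (hq : orderOf q = 7) :
    Nat.card ↥(normalizer (zpowers q : Set G) ⊓ normalizer (S : Set G)) = 21 := by
  have : Fact (Nat.Prime 7) := ⟨by norm_num⟩
  set A := normalizer (S : Set G) with hA
  set q' : A := ⟨q, hqA⟩ with hq'
  have hq'7 : orderOf q' = 7 := by rw [hq', Subgroup.orderOf_mk, hq]
  have h49 : ¬ 7 ^ 2 ∣ Nat.card A := by rw [L.norm]; norm_num
  have h1 := index_normalizer_modEq hq'7 h49
  have h2 := Subgroup.index_mul_card (normalizer (zpowers q' : Set A))
  rw [L.norm] at h2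
  have h3 : 7 ∣ Nat.card (normalizer (zpowers q' : Set A)) := by
    rw [← hq'7, ← Nat.card_zpowers]
    exact Subgroup.card_dvd_of_le le_normalizer
  have heq : normalizer (zpowers q' : Set A) = (normalizer (zpowers q : Set G)).subgroupOf A := by
    ext a
    rw [mem_norm_iff, mem_subgroupOf, mem_norm_iff]
    constructor
    · rintro ⟨m, hm⟩
      exact ⟨m, by have := congrArg Subtype.val hm; simpa using this⟩
    · rintro ⟨m, hm⟩
      exact ⟨m, Subtype.ext (by simpa using hm)⟩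
  have hcard : Nat.card (normalizer (zpowers q' : Set A)) =
      Nat.card ↥(normalizer (zpowers q : Set G) ⊓ A) := by
    rw [heq, ← Subgroup.inf_subgroupOf_right]
    exact Nat.card_congr (Subgroup.subgroupOfEquivOfLe inf_le_right).toEquiv
  rw [hcard] at h2 h3
  obtain ⟨k, hk⟩ := h3
  rw [hk] at h2
  set i := (normalizer (zpowers q' : Set A)).index with hi
  have h4 : i * k = 24 := by nlinarith
  have h5 : i ∣ 24 := ⟨k, h4.symm⟩
  have h6 : i ≤ 24 := Nat.le_of_dvd (by norm_num) h5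
  rcases divs24 i (by omega) h5 h1 with h7 | h7
  · exfalso
    rw [hi, Subgroup.index_eq_one] at h7
    obtain ⟨⟨s, hs⟩, hs1⟩ : ∃ s : S, s ≠ 1 := by
      have : Nontrivial S := by
        rw [← Finite.one_lt_card_iff_nontrivial, L.card]; norm_num
      exact exists_ne 1
    have hs1' : s ≠ 1 := fun h => hs1 (Subtype.ext h)
    have hsA : s ∈ A := le_normalizer hs
    have h8 : (⟨s, hsA⟩ : A) ∈ normalizer (zpowers q' : Set A) := by rw [h7]; exact mem_top _
    rw [heq, mem_subgroupOf, mem_norm_iff] at h8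
    change s * q * s⁻¹ ∈ zpowers q at h8
    -- the commutator
    have h9 : s * q * s⁻¹ * q⁻¹ ∈ zpowers q := mul_mem h8 (inv_mem (mem_zpowers q))
    have h10 : s * q * s⁻¹ * q⁻¹ ∈ S := by
      have : s * q * s⁻¹ * q⁻¹ = s * (q * s⁻¹ * q⁻¹) := by group
      rw [this]
      exact mul_mem hs (L.conj_mem hqA (inv_mem hs))
    have h11 : s * q * s⁻¹ * q⁻¹ = 1 := by
      have g1 := L.sq _ h10
      have g2 : (s * q * s⁻¹ * q⁻¹) ^ 7 = 1 := by
        rw [← orderOf_dvd_iff_pow_eq_one]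
        have g4 := Subgroup.orderOf_dvd_natCard _ h9
        rwa [Nat.card_zpowers q, hq] at g4
      have g3 : ∀ x : G, x * x = 1 → x ^ 7 = 1 → x = 1 := by
        intro x e1 e2
        have : x ^ 7 = (x * x) ^ 3 * x := by rw [← pow_two, ← pow_mul, ← pow_succ]
        rw [this, e1, one_pow, one_mul] at e2
        exact e2
      exact g3 _ g1 g2
    apply L.no7 hq (L.sq s hs) hs1'
    have h12 : s * q * s⁻¹ = q := by rwa [mul_inv_eq_one] at h11
    rw [mul_inv_eq_iff_eq_mul] at h12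
    exact h12.symm
  · rw [hk]
    rw [h7] at h4
    omega

end

end Cfsg.Agent.JV
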