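import Cfsg.Agent.JV.Four2

/-! The case `m = 4`: the action on nine points. -/

set_option autoImplicit false

namespace Cfsg.Agent.JV

open Cfsg Subgroup Cfsg.Agent.JC Cfsg.Agent.H60 Cfsg.Agent.StrEmb

theorem ord6 : orderOf ((6 : ℕ) : ZMod 7) = 2 := by
  have : Fact (Nat.Prime 2) := ⟨Nat.prime_two⟩
  exact orderOf_eq_prime (by decide) (by decide)

theorem card_ne {α : Type*} [Finite α] (a : α) : Nat.card {x : α // x ≠ a} + 1 = Nat.card α := by
  classical
  have := Fintype.ofFinite α
  have h := Set.card_ne_eq a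
  rw [Nat.card_eq_fintype_card, Nat.card_eq_fintype_card]
  have h2 : Fintype.card {x : α // x ≠ a} = Fintype.card {x : α | x ≠ a} :=
    Fintype.card_congr (Equiv.refl _)
  rw [h2, h]
  have : 0 < Fintype.card α := Fintype.card_pos_iff.mpr ⟨a⟩
  omega

theorem arith2 {f c n i : ℕ} (h1 : 7 * (f - 1) ≤ i) (h2 : i ≤ c) (h3 : 6 * c ≤ n)
    (h4 : n ≤ 21 * f) : f ≤ 2 := by omega

theorem smul_conj {Γ X : Type*} [Group Γ] [MulAction Γ X] (q h : Γ) (x : X) :
    q • (h • x) = h • ((h⁻¹ * q * h) • x) := by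
  rw [smul_smul, smul_smul]
  congr 1
  group

section

variable {G : Type*} [Group G] [Finite G] {S : Subgroup G}

theorem Loc.exists_invol (L : Loc S) {x : G ⧸ normalizer (S : Set G)}
    (hx : x ≠ QuotientGroup.mk 1) :
    ∃ u : G, orderOf u = 2 ∧ u • (QuotientGroup.mk 1 : G ⧸ normalizer (S : Set G)) = x := by
  have h1 := card_swap L.se hx.symm
  rw [L.count] at h1
  have h2 : Nonempty {i : G // orderOf i = 2 ∧
      i • (QuotientGroup.mk 1 : G ⧸ normalizer (S : Set G)) = x} := by
    rw [← not_isEmpty_iff]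
    intro h
    rw [Nat.card_of_isEmpty] at h1
    omega
  obtain ⟨u, hu⟩ := h2
  exact ⟨u, hu⟩

theorem fixes_base (q : G) : q • (QuotientGroup.mk 1 : G ⧸ normalizer (S : Set G)) =
    QuotientGroup.mk 1 ↔ q ∈ normalizer (S : Set G) := by
  rw [smul_mk_eq_iff]
  simp

theorem Loc.invol_data (L : Loc S) {x : G ⧸ normalizer (S : Set G)}
    (hx : x ≠ QuotientGroup.mk 1) {u : G} (hu : orderOf u = 2)
    (hux : u • (QuotientGroup.mk 1 : G ⧸ normalizer (S : Set G)) = x) :
    u ∉ normalizer (S : Set G) ∧ ∀ q : G, q ∈ (normalizer (S : Set G) ⊓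
      (normalizer (S : Set G)).map (MulAut.conj u).toMonoidHom) ↔
      q ∈ normalizer (S : Set G) ∧ q • x = x := by
  constructor
  · intro h
    rw [← fixes_base, hux] at h
    exact hx h
  · intro q
    rw [mem_inf_conj_iff, fixes_base, ← smul_mk_one, hux]

theorem Loc.fix_le (L : Loc S) {q : G} (hqA : q ∈ normalizer (S : Set G)) (hq : orderOf q = 7) :
    Nat.card {x : G ⧸ normalizer (S : Set G) // q • x = x} ≤ 2 := by
  classical
  have : Fact (Nat.Prime 7) := ⟨by norm_num⟩
  have : Fact (Nat.Prime 3) := ⟨by norm_num⟩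
  set A := normalizer (S : Set G) with hA
  set x0 : G ⧸ A := QuotientGroup.mk 1 with hx0
  let F := {x : G ⧸ A // q • x = x}
  have hq0 : q • x0 = x0 := (fixes_base q).mpr hqA
  have : Finite F := Subtype.finite
  have hq7 : q ^ 7 = 1 := by rw [← hq]; exact pow_orderOf_eq_one q
  by_cases hne : ∃ x1 : F, (x1 : G ⧸ A) ≠ x0
  · obtain ⟨⟨x1, hx1⟩, hx10⟩ := hne
    change x1 ≠ x0 at hx10
    obtain ⟨u0, hu0, hu0x⟩ := L.exists_invol hx10
    have hinv : ∀ x : G ⧸ A, q • x = x → x ≠ x0 → ∀ u : G, orderOf u = 2 → u • x0 = x →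
        u * q * u⁻¹ = q⁻¹ := by
      intro x hx hx0' u hu hux
      obtain ⟨h1, h2⟩ := L.invol_data hx0' hu hux
      exact L.inverts hu h1 hq ((h2 q).mpr ⟨hqA, hx⟩)
    have hu0q := hinv x1 hx1 hx10 u0 hu0 hu0x
    let I := {u : G // orderOf u = 2 ∧ u * q * u⁻¹ = q⁻¹}
    -- lower bound
    have hlow : 7 * (Nat.card F - 1) ≤ Nat.card I := by
      let F' := {x : F // x ≠ ⟨x0, hq0⟩}
      let Sg := Σ x : F', {u : G // orderOf u = 2 ∧ u • x0 = ((x : F) : G ⧸ A)}
      have hF' : Nat.card F' + 1 = Nat.card F := card_ne (⟨x0, hq0⟩ : F)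
      have hSg : Nat.card Sg = 7 * Nat.card F' := by
        have := Fintype.ofFinite F'
        rw [Nat.card_sigma]
        have h3 : ∀ x : F', Nat.card {u : G // orderOf u = 2 ∧ u • x0 = ((x : F) : G ⧸ A)} = 7 := by
          rintro ⟨⟨x, hx⟩, hxn⟩
          have hx' : x ≠ x0 := fun h => hxn (Subtype.ext h)
          rw [← L.count]
          exact card_swap L.se hx'.symm
        rw [Finset.sum_congr rfl (fun x _ => h3 x), Finset.sum_const, smul_eq_mul,
          Finset.card_univ, ← Nat.card_eq_fintype_card, mul_comm]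
      have hle : Nat.card Sg ≤ Nat.card I := by
        apply Nat.card_le_card_of_injective (fun p : Sg => (⟨p.2.1, p.2.2.1, by
          apply hinv ((p.1 : F) : G ⧸ A) (p.1 : F).2 (fun h => p.1.2 (Subtype.ext h)) p.2.1 p.2.2.1
            p.2.2.2⟩ : I))
        rintro ⟨⟨⟨x, hx⟩, hxn⟩, ⟨u, hu1, hu2⟩⟩ ⟨⟨⟨y, hy⟩, hyn⟩, ⟨w, hw1, hw2⟩⟩ h
        have h1 : u = w := congrArg (fun i : I => (i : G)) h
        subst h1
        have h2 : x = y := hu2.symm.trans hw2
        subst h2
        rfl
      rw [hSg] at hle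
      have : Nat.card F - 1 = Nat.card F' := by omega
      rw [this]
      exact hle
    have hup : Nat.card I ≤ Nat.card (centralizer ({q} : Set G)) := by
      have hmem : ∀ u : I, u0 * (u : G) ∈ centralizer ({q} : Set G) := by
        rintro ⟨u, hu1, hu2⟩
        rw [mem_centralizer_singleton_iff]
        change u0 * u * q = q * (u0 * u)
        have h1 : u0 * u * q * (u0 * u)⁻¹ = q := by
          calc u0 * u * q * (u0 * u)⁻¹ = u0 * (u * q * u⁻¹) * u0⁻¹ := by group
            _ = (u0 * q * u0⁻¹)⁻¹ := by rw [hu2]; group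
            _ = q := by rw [hu0q, inv_inv]
        rwa [mul_inv_eq_iff_eq_mul] at h1
      apply Nat.card_le_card_of_injective (fun u : I =>
        (⟨u0 * (u : G), hmem u⟩ : centralizer ({q} : Set G)))
      intro a b hab
      have h1 : u0 * (a : G) = u0 * b := congrArg Subtype.val hab
      exact Subtype.ext (mul_left_cancel h1)
    -- the normalizer
    have hNA := L.card_NA hqA hq
    set N := normalizer (zpowers q : Set G) with hN
    have h2r : 2 ∣ ratio q := by
      rw [← ord6]
      apply dvd_ratio hq (w := u0) (k := 6)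
      rw [hu0q]
      symm
      apply eq_inv_of_mul_eq_one_left
      rw [← pow_succ, hq7]
    have h3r : 3 ∣ ratio q := by
      obtain ⟨⟨h, hh⟩, hh3⟩ := exists_prime_orderOf_dvd_card' (G := ↥(N ⊓ A)) 3 (by
        rw [hNA]; norm_num)
      rw [Subgroup.orderOf_mk] at hh3
      obtain ⟨hhN, hhA⟩ := Subgroup.mem_inf.mp hh
      have h1 : h * q * h⁻¹ ∈ zpowers q := (mem_norm_iff h q).mp hhN
      obtain ⟨k, hk7, hk⟩ : ∃ k, k < 7 ∧ q ^ k = h * q * h⁻¹ := by
        rw [mem_zpowers_iff] at h1
        obtain ⟨m, hm⟩ := h1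
        refine ⟨(m % 7).toNat, ?_, ?_⟩
        · have := Int.emod_lt_of_pos m (by norm_num : (0 : ℤ) < 7)
          omega
        · rw [← hm]
          have h2 : (((m % 7).toNat : ℕ) : ℤ) = m % 7 :=
            Int.toNat_of_nonneg (Int.emod_nonneg m (by norm_num))
          rw [← zpow_natCast, h2]
          have h3 : m = m % 7 + 7 * (m / 7) := by omega
          conv_rhs => rw [h3, zpow_add, zpow_mul]
          have h5 : q ^ (7 : ℤ) = 1 := by exact_mod_cast hq7
          rw [h5, one_zpow, mul_one]
      have hh1 : h ^ 3 = 1 := by rw [← hh3]; exact pow_orderOf_eq_one h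
      have h2 : q ^ (k ^ 3) = q ^ 1 := by
        have e1 : q ^ (k ^ 3) = h * (h * (h * q * h⁻¹) * h⁻¹) * h⁻¹ := by
          rw [pow_succ, pow_two, pow_mul, pow_mul, hk, conj_pow, hk, conj_pow, conj_pow, hk]
        rw [e1, pow_one]
        calc h * (h * (h * q * h⁻¹) * h⁻¹) * h⁻¹ = h ^ 3 * q * (h ^ 3)⁻¹ := by
              rw [pow_succ, pow_two]; group
          _ = q := by rw [hh1]; group
      rw [pow_eq_pow_iff_modEq, hq] at h2
      have h3 : k ^ 3 % 7 = 1 := h2
      have h4 : k ≠ 1 := by
        rintro rfl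
        rw [pow_one] at hk
        have h5 : h * q = q * h := by
          rw [eq_comm, mul_inv_eq_iff_eq_mul] at hk
          exact hk
        have h6 := L.cA hqA hq hhA h5
        have h7 := Subgroup.orderOf_dvd_natCard _ h6
        rw [Nat.card_zpowers q, hq, hh3] at h7
        omega
      obtain ⟨h5, h6⟩ := ord3 ⟨k, hk7⟩ h3 h4
      have h7 : orderOf ((k : ℕ) : ZMod 7) = 3 := orderOf_eq_prime h5 h6
      rw [← h7]
      exact dvd_ratio hq hk.symm
    have h6r : 6 ∣ ratio q := by
      have : Nat.Coprime 2 3 := by norm_num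
      exact this.mul_dvd_of_dvd_of_dvd h2r h3r
    have hcN := card_normalizer_eq q
    have hNpos : 0 < Nat.card N := Nat.card_pos
    -- upper bound for the normalizer
    have hNle : Nat.card N ≤ 21 * Nat.card F := by
      have h1 : Nat.card (A.subgroupOf N) * (A.subgroupOf N).index = Nat.card N :=
        Subgroup.card_mul_index _
      have h2 : Nat.card (A.subgroupOf N) = 21 := by
        rw [← hNA, inf_comm, ← Subgroup.inf_subgroupOf_right]
        exact Nat.card_congr (Subgroup.subgroupOfEquivOfLe inf_le_right).toEquiv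
      have hfix : ∀ n : N, q • ((n : G) • x0) = (n : G) • x0 := by
        rintro ⟨n, hn⟩
        have h3 : n⁻¹ * q * n ∈ zpowers q := by
          have := (mem_norm_iff n⁻¹ q).mp (inv_mem hn)
          rwa [inv_inv] at this
        have h4 : n⁻¹ * q * n ∈ A := by
          obtain ⟨m, hm⟩ := h3
          have hm' : q ^ m = n⁻¹ * q * n := hm
          rw [← hm']
          exact zpow_mem hqA m
        have h5 := (fixes_base (S := S) (n⁻¹ * q * n)).mpr h4
        change q • (n • x0) = n • x0
        rw [smul_conj]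
        exact congrArg (fun y => n • y) h5
      have h3 : (A.subgroupOf N).index ≤ Nat.card F := by
        rw [Subgroup.index]
        apply Nat.card_le_card_of_injective (fun c : N ⧸ A.subgroupOf N =>
          Quotient.liftOn' c (fun n : N => (⟨(n : G) • x0, hfix n⟩ : F)) (by
            intro a b hab
            rw [QuotientGroup.leftRel_apply, mem_subgroupOf] at hab
            apply Subtype.ext
            change (a : G) • x0 = (b : G) • x0
            have h4 := (fixes_base (S := S) _).mpr hab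
            push_cast at h4
            calc (a : G) • x0 = (a : G) • (((a : G)⁻¹ * b) • x0) := by rw [h4]
              _ = (b : G) • x0 := by rw [← mul_smul, mul_inv_cancel_left]))
        intro a b
        induction a using QuotientGroup.induction_on with
        | H a =>
          induction b using QuotientGroup.induction_on with
          | H b =>
            intro h
            rw [QuotientGroup.eq, mem_subgroupOf]
            have h4 : (a : G) • x0 = (b : G) • x0 := congrArg Subtype.val h
            rw [← fixes_base (S := S)]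
            push_cast
            change ((a : G)⁻¹ * b) • x0 = x0
            rw [mul_smul, ← h4, inv_smul_smul]
      rw [← h1, h2]
      exact Nat.mul_le_mul_left _ h3
    obtain ⟨r, hr⟩ := h6r
    rw [hr] at hcN
    have hrpos : 0 < r := by
      rcases Nat.eq_zero_or_pos r with h | h
      · rw [h, mul_zero, mul_zero] at hcN
        exact absurd hcN hNpos.ne'
      · exact h
    have hc6 : 6 * Nat.card (centralizer ({q} : Set G)) ≤ Nat.card N := by
      rw [hcN]
      nlinarith [Nat.zero_le (Nat.card (centralizer ({q} : Set G)))]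
    exact arith2 hlow hup hc6 hNle
  · push Not at hne
    have h1 : Nat.card F ≤ 1 := by
      rw [Finite.card_le_one_iff_subsingleton]
      exact ⟨fun a b => Subtype.ext ((hne a).trans (hne b).symm)⟩
    exact h1.trans (by norm_num)

/-- The final configuration. -/
structure Pt (S : Subgroup G) (u q : G) : Prop where
  uo : orderOf u = 2
  uA : u ∉ normalizer (S : Set G)
  qo : orderOf q = 7
  qA : q ∈ normalizer (S : Set G)
  uq : u * q * u⁻¹ = q⁻¹
  fixq : ∀ x : G ⧸ normalizer (S : Set G), q • x = x → x = QuotientGroup.mk 1 ∨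
    x = u • (QuotientGroup.mk 1 : G ⧸ normalizer (S : Set G))
  fix1 : q • (u • (QuotientGroup.mk 1 : G ⧸ normalizer (S : Set G))) =
    u • (QuotientGroup.mk 1 : G ⧸ normalizer (S : Set G))
  reg : ∀ x : G ⧸ normalizer (S : Set G), x ≠ QuotientGroup.mk 1 →
    ∃ s ∈ S, s • (u • (QuotientGroup.mk 1 : G ⧸ normalizer (S : Set G))) = x
  fact : ∀ a ∈ normalizer (S : Set G), ∃ s ∈ S, ∃ h ∈ normalizer (zpowers q : Set G),
    h ∈ normalizer (S : Set G) ∧ a = s * h
  card : Nat.card G = 1512

theorem Loc.exists_pt (L : Loc S) : ∃ u q : G, Pt S u q := by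
  classical
  have : Fact (Nat.Prime 7) := ⟨by norm_num⟩
  set A := normalizer (S : Set G) with hA
  set x0 : G ⧸ A := QuotientGroup.mk 1 with hx0
  obtain ⟨g, hg⟩ : ∃ g, g ∉ A := by
    by_contra h
    push Not at h
    exact L.se.1 ((Subgroup.eq_top_iff' A).mpr h)
  have hgx : (QuotientGroup.mk g : G ⧸ A) ≠ x0 := by
    intro h
    apply hg
    have h2 := QuotientGroup.eq.mp h
    rw [mul_one] at h2
    exact inv_mem_iff.mp h2
  obtain ⟨u, hu, hux⟩ := L.exists_invol hgx
  obtain ⟨huA, hD⟩ := L.invol_data hgx hu hux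
  obtain ⟨q, hqD, hq⟩ := L.exists7 hu huA
  obtain ⟨hqA, hqx⟩ := (hD q).mp hqD
  have huq := L.inverts hu huA hq hqD
  rw [← hux] at hqx hgx
  set x1 : G ⧸ A := u • x0 with hx1
  have huu : u * u = 1 := by rw [← pow_two, ← hu]; exact pow_orderOf_eq_one u
  have hq0 : q • x0 = x0 := (fixes_base q).mpr hqA
  -- two fixed points
  have hfix : ∀ x : G ⧸ A, q • x = x → x = x0 ∨ x = x1 := by
    intro x hx
    by_contra h
    push Not at h
    have h1 := L.fix_le hqA hq
    have h2 : 3 ≤ Nat.card {x : G ⧸ A // q • x = x} := by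
      have : Nat.card (Fin 3) = 3 := by simp
      rw [← this]
      apply Nat.card_le_card_of_injective (fun i : Fin 3 =>
        (![⟨x0, hq0⟩, ⟨x1, hqx⟩, ⟨x, hx⟩] i : {x : G ⧸ A // q • x = x}))
      intro i j hij
      fin_cases i <;> fin_cases j
      · rfl
      · exact absurd (congrArg Subtype.val hij) hgx.symm
      · exact absurd (congrArg Subtype.val hij) h.1.symm
      · exact absurd (congrArg Subtype.val hij) hgx
      · rfl
      · exact absurd (congrArg Subtype.val hij) h.2.symm
      · exact absurd (congrArg Subtype.val hij) h.1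
      · exact absurd (congrArg Subtype.val hij) h.2
      · rfl
    exact absurd (h2.trans h1) (by norm_num)
  have hNA := L.card_NA hqA hq
  set N := normalizer (zpowers q : Set G) with hN
  have hzfix : ∀ (y : G ⧸ A) (p : G), p • y = y → ∀ d ∈ zpowers p, d • y = y := by
    rintro y p hy d ⟨m, rfl⟩
    change p ^ m • y = y
    have : p ∈ MulAction.stabilizer G y := hy
    exact zpow_mem this m
  have hNx1 : ∀ h ∈ N, h ∈ A → h • x1 = x1 := by
    intro h hhN hhA
    have h3 : h⁻¹ * q * h ∈ zpowers q := by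
      have := (mem_norm_iff h⁻¹ q).mp (inv_mem hhN)
      rwa [inv_inv] at this
    have h4 : q • (h • x1) = h • x1 := by
      rw [smul_conj, hzfix x1 q hqx _ h3]
    rcases hfix _ h4 with h5 | h5
    · exfalso
      apply hgx
      have h6 : h • x0 = x0 := (fixes_base h).mpr hhA
      have h7 : h • x1 = h • x0 := by rw [h5, h6]
      exact smul_left_cancel h h7
    · exact h5
  -- factorization of `A`
  have hfact : ∀ a ∈ A, ∃ s ∈ S, ∃ h ∈ N, h ∈ A ∧ a = s * h := by
    have hSA : S ≤ A := le_normalizer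
    let f : S × ↥(N ⊓ A) → A := fun p =>
      ⟨(p.1 : G) * p.2, mul_mem (hSA p.1.2) (Subgroup.mem_inf.mp p.2.2).2⟩
    have hinj : Function.Injective f := by
      rintro ⟨s, h⟩ ⟨s', h'⟩ heq
      have h1 : (s : G) * h = s' * h' := congrArg Subtype.val heq
      have h2 : (s' : G)⁻¹ * s = h' * (h : G)⁻¹ := by
        rw [inv_mul_eq_iff_eq_mul, ← mul_assoc, ← h1, mul_inv_cancel_right]
      have h3 : (s' : G)⁻¹ * s ∈ S := mul_mem (inv_mem s'.2) s.2
      have h4 : (s' : G)⁻¹ * s ∈ N ⊓ A := by
        rw [h2]; exact mul_mem h'.2 (inv_mem h.2)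
      have h5 : (s' : G)⁻¹ * s = 1 := by
        have g1 := L.sq _ h3
        have g2 : ((s' : G)⁻¹ * s) ^ 21 = 1 := by
          rw [← orderOf_dvd_iff_pow_eq_one, ← hNA]
          exact Subgroup.orderOf_dvd_natCard _ h4
        have g3 : ((s' : G)⁻¹ * s) ^ 21 = (((s' : G)⁻¹ * s) * ((s' : G)⁻¹ * s)) ^ 10 *
            ((s' : G)⁻¹ * s) := by rw [← pow_two, ← pow_mul, ← pow_succ]
        rw [g3, g1, one_pow, one_mul] at g2
        exact g2
      have h6 : s = s' := Subtype.ext (inv_mul_eq_one.mp h5).symm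
      have h7 : h = h' := by
        apply Subtype.ext
        rw [h6] at h1
        exact mul_left_cancel h1
      rw [h6, h7]
    have hcard : Nat.card (S × ↥(N ⊓ A)) = Nat.card A := by
      rw [Nat.card_prod, L.card, hNA, L.norm]
    have hb := (Nat.bijective_iff_injective_and_card f).mpr ⟨hinj, hcard⟩
    intro a ha
    obtain ⟨⟨s, h⟩, hsh⟩ := hb.2 ⟨a, ha⟩
    exact ⟨s, s.2, h, (Subgroup.mem_inf.mp h.2).1, (Subgroup.mem_inf.mp h.2).2,
      (congrArg Subtype.val hsh).symm⟩
  -- transitivity
  have hreg : ∀ x : G ⧸ A, x ≠ x0 → ∃ s ∈ S, s • x1 = x := by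
    intro x hx
    obtain ⟨w, hw, hwx⟩ := L.exists_invol hx
    obtain ⟨hwA, hDw⟩ := L.invol_data hx hw hwx
    obtain ⟨q', hq'D, hq'⟩ := L.exists7 hw hwA
    obtain ⟨hq'A, hq'x⟩ := (hDw q').mp hq'D
    obtain ⟨⟨a, ha⟩, hconj⟩ := exists_conj_zpowers (G := A) (q := 7) (a := ⟨q, hqA⟩)
      (b := ⟨q', hq'A⟩) (by rw [Subgroup.orderOf_mk, hq]) (by rw [Subgroup.orderOf_mk, hq'])
      (by rw [L.norm]; norm_num)
    have h1 : a * q * a⁻¹ ∈ zpowers q' := by
      have h2 : (⟨a, ha⟩ : A) * ⟨q, hqA⟩ * (⟨a, ha⟩ : A)⁻¹ ∈ zpowers (⟨q', hq'A⟩ : A) := by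
        rw [← hconj]; exact mem_zpowers _
      obtain ⟨m, hm⟩ := h2
      exact ⟨m, by have := congrArg Subtype.val hm; simpa using this⟩
    have h2 := hzfix x q' hq'x _ h1
    have h3 : q • (a⁻¹ • x) = a⁻¹ • x := by
      rw [smul_conj, inv_inv, h2]
    have h4 : a⁻¹ • x = x1 := by
      rcases hfix _ h3 with h5 | h5
      · exfalso
        apply hx
        have h6 : a • x0 = x0 := (fixes_base a).mpr ha
        rw [inv_smul_eq_iff, h6] at h5
        exact h5
      · exact h5
    obtain ⟨s, hs, h, hhN, hhA, hsh⟩ := hfact a ha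
    refine ⟨s, hs, ?_⟩
    rw [inv_smul_eq_iff, hsh, mul_smul, hNx1 h hhN hhA] at h4
    exact h4.symm
  -- the order
  have hcard : Nat.card G = 1512 := by
    have h1 : Nat.card (G ⧸ A) = 9 := by
      let f : Option S → G ⧸ A := fun o => o.elim x0 (fun s => (s : G) • x1)
      have hf : Function.Bijective f := by
        have hs0 : ∀ s : S, (s : G) • x1 ≠ x0 := by
          intro s h
          have h2 : (s : G) • x0 = x0 := (fixes_base (s : G)).mpr (le_normalizer s.2)
          exact hgx (smul_left_cancel (s : G) (h.trans h2.symm))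
        constructor
        · rintro (_ | s) (_ | s') h
          · rfl
          · exact absurd h.symm (hs0 s')
          · exact absurd h (hs0 s)
          · have h2 : (s : G) • x1 = (s' : G) • x1 := h
            by_contra hne
            have h3 : (s' : G)⁻¹ * s ∈ S := mul_mem (inv_mem s'.2) s.2
            have h4 : (s' : G)⁻¹ * s ≠ 1 := by
              intro h5
              apply hne
              congr 1
              exact Subtype.ext (inv_mul_eq_one.mp h5).symm
            have h5 : orderOf ((s' : G)⁻¹ * s) = 2 := by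
              have : Fact (Nat.Prime 2) := ⟨Nat.prime_two⟩
              exact orderOf_eq_prime (by rw [pow_two]; exact L.sq _ h3) h4
            have h6 : ((s' : G)⁻¹ * s) • x1 = x1 := by
              rw [mul_smul, h2, inv_smul_smul]
            have h7 : ((s' : G)⁻¹ * s) • x0 = x0 := (fixes_base _).mpr (le_normalizer h3)
            exact hgx (eq_of_smul_eq L.se h5 h6 h7)
        · intro x
          by_cases hx : x = x0
          · exact ⟨none, hx.symm⟩
          · obtain ⟨s, hs, h⟩ := hreg x hx
            exact ⟨some ⟨s, hs⟩, h⟩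
      rw [← Nat.card_eq_of_bijective f hf, Finite.card_option, L.card]
    have h2 := Subgroup.card_eq_card_quotient_mul_card_subgroup A
    rw [h1, L.norm] at h2
    exact h2
  exact ⟨u, q, ⟨hu, huA, hq, hqA, huq, hfix, hqx, hreg, hfact, hcard⟩⟩

end

end Cfsg.Agent.JV
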