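import Cfsg.Agent.H21.RecogSL2

/-! A subgroup isomorphic to `SL₂(F)`. -/

set_option autoImplicit false
set_option linter.unusedSectionVars false

namespace Cfsg.Agent.JV

open Matrix OnePoint Cfsg.Agent.H21

variable {G Ω F : Type*} [Group G] [Finite G] [MulAction G Ω] [Field F] [Fintype F] [DecidableEq F]
  [CharP F 2]

theorem sl2_sub (inf o : Ω) (τ : F → G) (δ : Fˣ →* G) (u : G)
    (hτinf : ∀ b, τ b • inf = inf) (hτadd : ∀ a b, τ (a + b) = τ a * τ b)
    (hsurj : ∀ x, x ≠ inf → ∃ b, τ b • o = x) (hinj : ∀ b, τ b • o = o → b = 0)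
    (ho : o ≠ inf) (hδinf : ∀ a, δ a • inf = inf) (hδo : ∀ a, δ a • o = o)
    (hconj : ∀ (a : Fˣ) (b : F), δ a * τ b * (δ a)⁻¹ = τ (a * b))
    (hu1 : u • inf = o) (hu2 : u • o = inf) (hinv : ∀ a, u * δ a * u⁻¹ = (δ a)⁻¹)
    (hfaith : ∀ g : G, (∀ x : Ω, g • x = x) → g = 1) :
    Nonempty (Subgroup.closure (Set.range τ ∪ Set.range δ ∪ {u}) ≃*
      Matrix.SpecialLinearGroup (Fin 2) F) ∧
    Nat.card (Subgroup.closure (Set.range τ ∪ Set.range δ ∪ {u})) =
      (Fintype.card F + 1) * (Fintype.card F * (Fintype.card F - 1)) := by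
  have hτ0 : τ 0 = 1 := by
    have := hτadd 0 0
    rw [add_zero] at this
    exact (mul_eq_left.1 this.symm)
  let ψ : OnePoint F → Ω := fun x => x.elim inf (fun b => τ b • o)
  have ψinf : ψ ∞ = inf := rfl
  have ψcoe : ∀ b : F, ψ (b : OnePoint F) = τ b • o := fun b => rfl
  have hτo : ∀ b, τ b • o ≠ inf := by
    intro b hb
    apply ho
    have h1 : (τ b)⁻¹ • (τ b • o) = (τ b)⁻¹ • (τ b • inf) := by rw [hb, hτinf]
    simpa using h1
  have ψsurj : Function.Surjective ψ := by
    intro x
    by_cases hx : x = inf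
    · exact ⟨∞, by rw [hx, ψinf]⟩
    · obtain ⟨b, hb⟩ := hsurj x hx
      exact ⟨(b : OnePoint F), hb⟩
  have hτneg : ∀ b, τ (-b) = (τ b)⁻¹ := by
    intro b
    have := hτadd (-b) b
    rw [neg_add_cancel, hτ0] at this
    exact eq_inv_of_mul_eq_one_left this.symm
  have hτinj : ∀ a b, τ a • o = τ b • o → a = b := by
    intro a b hab
    have h1 : τ (-b + a) • o = o := by
      rw [hτadd, hτneg, mul_smul, hab, inv_smul_smul]
    have := hinj _ h1
    linear_combination this
  have ψinj : Function.Injective ψ := by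
    intro x y hxy
    induction x using OnePoint.rec with
    | infty =>
      induction y using OnePoint.rec with
      | infty => rfl
      | coe b => exact absurd hxy.symm (hτo b)
    | coe a =>
      induction y using OnePoint.rec with
      | infty => exact absurd hxy (hτo a)
      | coe b => rw [hτinj a b hxy]
  -- the constant `c`
  have huo : u • (τ 1 • o) ≠ inf := by
    intro hc
    have h1 : u • (τ 1 • o) = u • o := by rw [hc, hu2]
    have h2 := smul_left_cancel u h1
    exact one_ne_zero (hinj 1 h2)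
  obtain ⟨c, hc⟩ := hsurj _ huo
  have hc0 : c ≠ 0 := by
    rintro rfl
    rw [hτ0, one_smul] at hc
    have h1 : u • inf = u • (τ 1 • o) := hu1.trans hc
    have := smul_left_cancel u h1
    exact hτo 1 this.symm
  have huψ : ∀ a : F, a ≠ 0 → u • ψ (a : OnePoint F) = ψ ((a⁻¹ * c : F) : OnePoint F) := by
    intro a ha
    have h1 : τ a • o = δ (Units.mk0 a ha) • (τ 1 • o) := by
      have h2 := hconj (Units.mk0 a ha) 1
      rw [mul_one, Units.val_mk0] at h2
      rw [← h2, mul_smul, mul_smul]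
      congr 2
      rw [inv_smul_eq_iff, hδo]
    have h3 : u * δ (Units.mk0 a ha) = (δ (Units.mk0 a ha))⁻¹ * u := by
      rw [← hinv]; group
    have h4 : (δ (Units.mk0 a ha))⁻¹ = δ (Units.mk0 a ha)⁻¹ := (map_inv δ _).symm
    rw [ψcoe, ψcoe, h1, ← mul_smul, h3, mul_smul, ← hc, h4]
    have h5 := hconj (Units.mk0 a ha)⁻¹ c
    have h6 : (((Units.mk0 a ha)⁻¹ : Fˣ) : F) = a⁻¹ := by simp
    rw [h6] at h5
    rw [← h5, mul_smul, mul_smul]
    congr 2
    rw [eq_comm, inv_smul_eq_iff, hδo]
  let P : G → Prop := fun g => ∃ A : Matrix.SpecialLinearGroup (Fin 2) F, ∀ x, g • ψ x = ψ (slAct A x)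
  have Pmul : ∀ g h, P g → P h → P (g * h) := by
    rintro g h ⟨A, hA⟩ ⟨B, hB⟩
    exact ⟨A * B, fun x => by rw [mul_smul, hB, hA, slAct_mul]⟩
  have Pinv : ∀ g, P g → P g⁻¹ := by
    rintro g ⟨A, hA⟩
    refine ⟨A⁻¹, fun x => ?_⟩
    rw [inv_smul_eq_iff, hA, ← slAct_mul, mul_inv_cancel, slAct_one]
  have Pone : P 1 := ⟨1, fun x => by rw [one_smul, slAct_one]⟩
  have Pτ : ∀ b, P (τ b) := by
    intro b
    refine ⟨mkSL 1 b 0 1 (by ring), fun x => ?_⟩
    induction x using OnePoint.rec with
    | infty => rw [slAct_mkSL_infty, if_pos rfl, ψinf, hτinf]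
    | coe a =>
      rw [slAct_mkSL_some, if_neg (by simp), zero_mul, zero_add, div_one, one_mul, ψcoe, ψcoe,
        ← mul_smul, ← hτadd, add_comm]
  have hδψ : ∀ (a : Fˣ) (b : F), δ a • ψ (b : OnePoint F) = ψ ((a * b : F) : OnePoint F) := by
    intro a b
    rw [ψcoe, ψcoe, ← hconj, mul_smul, mul_smul]
    congr 2
    rw [eq_comm, inv_smul_eq_iff, hδo]
  have Pδ : ∀ a, P (δ a) := by
    intro a
    obtain ⟨s, hs⟩ := exists_sqrt (a : F)
    have hs0 : s ≠ 0 := by rintro rfl; rw [mul_zero] at hs; exact a.ne_zero hs.symm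
    refine ⟨mkSL s 0 0 s⁻¹ (by rw [mul_inv_cancel₀ hs0]; ring), fun x => ?_⟩
    induction x using OnePoint.rec with
    | infty => rw [slAct_mkSL_infty, if_pos rfl, ψinf, hδinf]
    | coe b =>
      rw [slAct_mkSL_some, hδψ, if_neg (by simp [hs0]), zero_mul, zero_add, add_zero, ← hs]
      congr 2
      field_simp
  have Pu : P u := by
    obtain ⟨s, hs⟩ := exists_sqrt c
    have hs0 : s ≠ 0 := by rintro rfl; rw [mul_zero] at hs; exact hc0 hs.symm
    refine ⟨mkSL 0 s s⁻¹ 0 (by
      rw [zero_mul, zero_sub, mul_inv_cancel₀ hs0]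
      exact CharTwo.neg_eq _), fun x => ?_⟩
    induction x using OnePoint.rec with
    | infty =>
      rw [slAct_mkSL_infty, if_neg (inv_ne_zero hs0), ψinf, hu1, zero_div, ψcoe, hτ0, one_smul]
    | coe b =>
      rw [slAct_mkSL_some]
      by_cases hb : b = 0
      · subst hb
        rw [if_pos (by simp), ψcoe, hτ0, one_smul, hu2, ψinf]
      · rw [if_neg (by simp [hs0, hb]), huψ b hb, zero_mul, zero_add, add_zero, ← hs]
        congr 2
        field_simp
  set N := Subgroup.closure (Set.range τ ∪ Set.range δ ∪ {u}) with hN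
  have PN : ∀ g ∈ N, P g := by
    intro g hg
    induction hg using Subgroup.closure_induction with
    | mem x hx =>
      rcases hx with (⟨b, rfl⟩ | ⟨a, rfl⟩) | hx
      · exact Pτ b
      · exact Pδ a
      · rw [Set.mem_singleton_iff] at hx
        rw [hx]; exact Pu
    | one => exact Pone
    | mul x y _ _ hx hy => exact Pmul x y hx hy
    | inv x _ hx => exact Pinv x hx
  have hτN : ∀ b, τ b ∈ N := fun b => Subgroup.subset_closure (Or.inl (Or.inl ⟨b, rfl⟩))
  have hδN : ∀ a, δ a ∈ N := fun a => Subgroup.subset_closure (Or.inl (Or.inr ⟨a, rfl⟩))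
  have huN : u ∈ N := Subgroup.subset_closure (Or.inr rfl)
  -- the stabiliser
  have hstab : ∀ g ∈ N, g • inf = inf → ∃ b a, g = τ b * δ a := by
    intro g hg hginf
    obtain ⟨A, hA⟩ := PN g hg
    have hdet := A.2
    rw [Matrix.det_fin_two] at hdet
    have h1 := hA ∞
    rw [ψinf, hginf, ← ψinf] at h1
    have h2 := ψinj h1
    rw [slAct_infty] at h2
    have h10 : A 1 0 = 0 := by
      by_contra hc
      rw [if_neg hc] at h2
      exact OnePoint.coe_ne_infty _ h2.symm
    have h10' : (A : Matrix (Fin 2) (Fin 2) F) 1 0 = 0 := h10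
    rw [h10', mul_zero, sub_zero] at hdet
    have h00 : A 0 0 ≠ 0 := by
      intro hc
      have hc' : (A : Matrix (Fin 2) (Fin 2) F) 0 0 = 0 := hc
      rw [hc', zero_mul] at hdet
      exact zero_ne_one hdet
    have h11 : A 1 1 = (A 0 0)⁻¹ := by
      have hd : A 0 0 * A 1 1 = 1 := hdet
      exact (inv_eq_of_mul_eq_one_right hd).symm
    refine ⟨A 0 0 * A 0 1, Units.mk0 (A 0 0 * A 0 0) (mul_ne_zero h00 h00), ?_⟩
    have h3 : ∀ x, g • ψ x = (τ (A 0 0 * A 0 1) *
        δ (Units.mk0 (A 0 0 * A 0 0) (mul_ne_zero h00 h00))) • ψ x := by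
      intro x
      rw [hA]
      induction x using OnePoint.rec with
      | infty =>
        rw [slAct_infty, if_pos h10, ψinf, mul_smul, hδinf, hτinf]
      | coe k =>
        rw [slAct_some, h10, zero_mul, zero_add, h11, if_neg (inv_ne_zero h00), mul_smul, hδψ,
          ψcoe, ψcoe, ← mul_smul, ← hτadd, Units.val_mk0]
        congr 2
        field_simp
        ring
    have h4 : (τ (A 0 0 * A 0 1) * δ (Units.mk0 (A 0 0 * A 0 0) (mul_ne_zero h00 h00)))⁻¹ * g
        = 1 := by
      apply hfaith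
      intro y
      obtain ⟨x, rfl⟩ := ψsurj y
      rw [mul_smul, h3, inv_smul_smul]
    exact (inv_mul_eq_one.mp h4).symm
  have hN1 : Nat.card N = (Fintype.card F + 1) * (Fintype.card F * (Fintype.card F - 1)) := by
    have h1 := (MulAction.stabilizer N inf).index_mul_card
    rw [MulAction.index_stabilizer] at h1
    have hb : Function.Bijective ψ := ⟨ψinj, ψsurj⟩
    have hΩ : Nat.card Ω = Fintype.card F + 1 := by
      rw [← Nat.card_eq_of_bijective ψ hb]
      change Nat.card (Option F) = _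
      rw [Finite.card_option, Nat.card_eq_fintype_card]
    have h2 : (MulAction.orbit N inf).ncard = Fintype.card F + 1 := by
      have h3 : MulAction.orbit N inf = Set.univ := by
        rw [Set.eq_univ_iff_forall]
        intro y
        by_cases hy : y = inf
        · rw [hy]; exact MulAction.mem_orbit_self _
        · obtain ⟨b, hb⟩ := hsurj y hy
          refine ⟨⟨τ b * u, mul_mem (hτN b) huN⟩, ?_⟩
          change (τ b * u) • inf = y
          rw [mul_smul, hu1, hb]
      rw [h3, Set.ncard_univ, hΩ]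
    have h3 : Nat.card (MulAction.stabilizer N inf) = Fintype.card F * (Fintype.card F - 1) := by
      let f : F × Fˣ → MulAction.stabilizer N inf := fun p =>
        ⟨⟨τ p.1 * δ p.2, mul_mem (hτN _) (hδN _)⟩, by
          change (τ p.1 * δ p.2) • inf = inf
          rw [mul_smul, hδinf, hτinf]⟩
      have hf : Function.Bijective f := by
        constructor
        · rintro ⟨b, a⟩ ⟨b', a'⟩ h
          have h4 : τ b * δ a = τ b' * δ a' :=
            congrArg (fun g : MulAction.stabilizer N inf => ((g : N) : G)) h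
          have h5 : b = b' := by
            apply hτinj
            have h6 : (τ b * δ a) • o = (τ b' * δ a') • o := by rw [h4]
            rwa [mul_smul, mul_smul, hδo, hδo] at h6
          subst h5
          have h6 := mul_left_cancel h4
          have h7 := hconj a 1
          rw [h6, hconj, mul_one, mul_one] at h7
          have h8 : (a' : F) = a := hτinj _ _ (by rw [h7])
          have h9 : a = a' := Units.ext h8.symm
          rw [h9]
        · rintro ⟨⟨g, hg⟩, hs⟩
          obtain ⟨b, a, h⟩ := hstab g hg hs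
          refine ⟨(b, a), ?_⟩
          apply Subtype.ext
          apply Subtype.ext
          exact h.symm
      rw [← Nat.card_eq_of_bijective f hf, Nat.card_prod, Nat.card_eq_fintype_card,
        Nat.card_units, Nat.card_eq_fintype_card]
    rw [h2, h3] at h1
    exact h1.symm
  refine ⟨?_, hN1⟩
  exact nonempty_mulEquiv_sl2 (G := N) inf o (fun b => ⟨τ b, hτN b⟩)
    (δ.codRestrict N hδN) ⟨u, huN⟩ hτinf (fun a b => Subtype.ext (hτadd a b)) hsurj hinj ho
    hδinf hδo (fun a b => Subtype.ext (hconj a b)) hu1 hu2 (fun a => Subtype.ext (hinv a))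
    (fun g hg => by
      obtain ⟨b, a, h⟩ := hstab g g.2 hg
      exact ⟨b, a, Subtype.ext h⟩)
    (fun g hg => Subtype.ext (hfaith g hg)) hN1

end Cfsg.Agent.JV
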