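import Cfsg.Agent.JV.Four3
import Cfsg.Agent.JV.SL2sub
import Cfsg.Agent.H21.RecogField
import Cfsg.Agent.S0813
import Cfsg.Agent.S0265

/-! The case `m = 4`: identification. -/

set_option autoImplicit false

namespace Cfsg.Agent.JV

open Cfsg Subgroup Cfsg.Agent.JC Cfsg.Agent.H60 Cfsg.Agent.StrEmb

section

variable {G : Type*} [Group G] [Finite G] {S : Subgroup G}

theorem Loc.final (L : Loc S) : ∃ (F : Type) (_ : Field F) (_ : Fintype F), Fintype.card F = 8 ∧
    Nonempty (G ≃* MulAut (Matrix.ProjectiveSpecialLinearGroup (Fin 2) F)) := by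
  classical
  have : Fact (Nat.Prime 2) := ⟨Nat.prime_two⟩
  obtain ⟨u, q, P⟩ := L.exists_pt
  set A := normalizer (S : Set G) with hA
  set x0 : G ⧸ A := QuotientGroup.mk 1 with hx0
  have hSA : S ≤ A := le_normalizer
  have huu : u * u = 1 := by rw [← pow_two, ← P.uo]; exact pow_orderOf_eq_one u
  have hui : u⁻¹ = u := inv_eq_of_mul_eq_one_left huu
  obtain ⟨⟨t, ht⟩, ht1⟩ : ∃ s : S, s ≠ 1 := by
    have : Nontrivial S := by
      rw [← Finite.one_lt_card_iff_nontrivial, L.card]; norm_num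
    exact exists_ne 1
  have ht1' : t ≠ 1 := fun h => ht1 (Subtype.ext h)
  have hord : ∀ d ∈ zpowers q, d ≠ 1 → orderOf d = 7 := by
    intro d hd hd1
    have h6 := Subgroup.orderOf_dvd_natCard _ hd
    rw [Nat.card_zpowers q, P.qo] at h6
    rcases (Nat.dvd_prime (by norm_num : Nat.Prime 7)).mp h6 with h7 | h7
    · rw [orderOf_eq_one_iff] at h7
      exact absurd h7 hd1
    · exact h7
  have hzA : ∀ d ∈ zpowers q, d ∈ A := by
    rintro d ⟨m, rfl⟩
    exact zpow_mem P.qA m
  obtain ⟨F, fF, fin, τ, δ, hτadd, hτinj, hτS, hτsurj, hδD, hδsurj, hconj⟩ :=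
    Cfsg.Agent.H21.exists_field_of_regular S (zpowers q)
      (by
        rintro _ ⟨m, rfl⟩ _ ⟨n, rfl⟩
        exact ((Commute.refl q).zpow_zpow m n).eq)
      (fun d hd s hs => L.conj_mem (hzA d hd) hs) t ht ht1'
      (fun s hs hs1 => L.trans7 P.qA P.qo ht ht1' hs hs1)
      (fun s hs hs1 d hd h => by
        by_contra hd1
        apply L.no7 (hord d hd hd1) (L.sq s hs) hs1
        rw [mul_inv_eq_iff_eq_mul] at h
        exact h)
  have hτ0 : τ 0 = 1 := by
    have := hτadd 0 0
    rw [add_zero] at this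
    exact (mul_eq_left.1 this.symm)
  have h20 : (2 : F) = 0 := by
    apply hτinj
    rw [← one_add_one_eq_two, hτadd, hτ0]
    exact L.sq _ (hτS 1)
  have hchar : CharP F 2 := CharTwo.of_one_ne_zero_of_two_eq_zero one_ne_zero h20
  have hcF : Fintype.card F = 8 := by
    have hb : Function.Bijective (fun b : F => (⟨τ b, hτS b⟩ : S)) := by
      constructor
      · intro a b h
        exact hτinj (congrArg Subtype.val h)
      · rintro ⟨s, hs⟩
        obtain ⟨a, ha⟩ := hτsurj s hs
        exact ⟨a, Subtype.ext ha⟩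
    rw [← Nat.card_eq_fintype_card, Nat.card_eq_of_bijective _ hb, L.card]
  -- fixed points of elements of `S`
  have ho : u • x0 ≠ x0 := by
    intro h
    exact P.uA ((fixes_base u).mp h)
  have hSfix : ∀ s ∈ S, s • (u • x0) = u • x0 → s = 1 := by
    intro s hs h
    by_contra hs1
    have h5 : orderOf s = 2 := orderOf_eq_prime (by rw [pow_two]; exact L.sq _ hs) hs1
    have h7 : s • x0 = x0 := (fixes_base _).mpr (hSA hs)
    exact ho (eq_of_smul_eq L.se h5 h h7)
  have hzfix : ∀ (y : G ⧸ A) (p : G), p • y = y → ∀ d ∈ zpowers p, d • y = y := by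
    rintro y p hy d ⟨m, rfl⟩
    change p ^ m • y = y
    have : p ∈ MulAction.stabilizer G y := hy
    exact zpow_mem this m
  have hq0 : q • x0 = x0 := (fixes_base q).mpr P.qA
  have hu2 : u • (u • x0) = x0 := by rw [smul_smul, huu, one_smul]
  have hinvq : ∀ d ∈ zpowers q, u * d * u⁻¹ = d⁻¹ := by
    rintro d ⟨m, rfl⟩
    change u * q ^ m * u⁻¹ = (q ^ m)⁻¹
    rw [← conj_zpow, P.uq, inv_zpow]
  have hfaith : ∀ g : G, (∀ x : G ⧸ A, g • x = x) → g = 1 := by
    intro g hg
    have hgA : g ∈ A := (fixes_base g).mp (hg x0)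
    have hgi : ∀ x : G ⧸ A, g⁻¹ • x = x := fun x => by rw [inv_smul_eq_iff, hg]
    have hgS : g ∈ S := by
      apply L.selfc
      intro s hs
      have h1 : s * (g * s⁻¹ * g⁻¹) ∈ S := mul_mem hs (L.conj_mem hgA (inv_mem hs))
      have h2 : (s * (g * s⁻¹ * g⁻¹)) • (u • x0) = u • x0 := by
        rw [mul_smul, mul_smul, mul_smul, hgi, hg, smul_inv_smul]
      have h3 := hSfix _ h1 h2
      have h4 : s * g = g * s := by
        calc s * g = (s * (g * s⁻¹ * g⁻¹)) * g * s := by group
          _ = g * s := by rw [h3, one_mul]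
      exact h4.symm
    exact hSfix g hgS (hg _)
  obtain ⟨⟨e1'⟩, hcN⟩ := sl2_sub (F := F) (Ω := G ⧸ A) x0 (u • x0) τ δ u
    (fun b => (fixes_base _).mpr (hSA (hτS b))) hτadd
    (fun x hx => by
      obtain ⟨s, hs, h⟩ := P.reg x hx
      obtain ⟨b, hb⟩ := hτsurj s hs
      exact ⟨b, by rw [hb, h]⟩)
    (fun b hb => by
      apply hτinj
      rw [hτ0]
      exact hSfix _ (hτS b) hb)
    ho
    (fun a => hzfix x0 q hq0 _ (hδD a))
    (fun a => hzfix (u • x0) q P.fix1 _ (hδD a))
    hconj rfl hu2 (fun a => hinvq _ (hδD a)) hfaith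
  set N := closure (Set.range τ ∪ Set.range δ ∪ {u}) with hN
  have hSN : ∀ s ∈ S, s ∈ N := by
    intro s hs
    obtain ⟨b, rfl⟩ := hτsurj s hs
    exact subset_closure (Or.inl (Or.inl ⟨b, rfl⟩))
  have hqN : ∀ d ∈ zpowers q, d ∈ N := by
    intro d hd
    obtain ⟨a, rfl⟩ := hδsurj d hd
    exact subset_closure (Or.inl (Or.inr ⟨a, rfl⟩))
  have huN : u ∈ N := subset_closure (Or.inr rfl)
  -- normality
  have hnorm : ∀ h ∈ normalizer (zpowers q : Set G), h ∈ A → h ∈ normalizer (N : Set G) := by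
    intro h hhN hhA
    have hfix1 : ∀ h ∈ normalizer (zpowers q : Set G), h ∈ A → h • (u • x0) = u • x0 := by
      intro h hhN hhA
      have h3 : h⁻¹ * q * h ∈ zpowers q := by
        have := (mem_norm_iff h⁻¹ q).mp (inv_mem hhN)
        rwa [inv_inv] at this
      have h4 : q • (h • (u • x0)) = h • (u • x0) := by
        rw [smul_conj q h, hzfix (u • x0) q P.fix1 _ h3]
      rcases P.fixq _ h4 with h5 | h5
      · exfalso
        apply ho
        have h6 : h • x0 = x0 := (fixes_base h).mpr hhA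
        have h7 : h • (u • x0) = h • x0 := by rw [h5, h6]
        exact smul_left_cancel h h7
      · exact h5
    have hw : h * u * h⁻¹ * u⁻¹ ∈ zpowers q := by
      apply L.cA P.qA P.qo
      · rw [← fixes_base (S := S)]
        change (h * u * h⁻¹ * u⁻¹) • x0 = x0
        rw [hui, mul_smul, mul_smul, hfix1 _ (inv_mem hhN) (inv_mem hhA), mul_smul, hu2]
        exact (fixes_base h).mpr hhA
      · have h3 : h⁻¹ * q * h ∈ zpowers q := by
          have := (mem_norm_iff h⁻¹ q).mp (inv_mem hhN)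
          rwa [inv_inv] at this
        have h4 := hinvq _ h3
        have h5 : u⁻¹ * q * u = q⁻¹ := by
          rw [hui]
          have := P.uq
          rwa [hui] at this
        have h6 : (h * u * h⁻¹ * u⁻¹) * q * (h * u * h⁻¹ * u⁻¹)⁻¹ = q := by
          calc (h * u * h⁻¹ * u⁻¹) * q * (h * u * h⁻¹ * u⁻¹)⁻¹ =
                h * u * h⁻¹ * (u⁻¹ * q * u) * h * u⁻¹ * h⁻¹ := by group
            _ = h * (u * (h⁻¹ * q * h) * u⁻¹)⁻¹ * h⁻¹ := by rw [h5]; group
            _ = h * (h⁻¹ * q * h) * h⁻¹ := by rw [h4, inv_inv]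
            _ = q := by group
        rwa [mul_inv_eq_iff_eq_mul] at h6
    apply mem_normalizer_of_conj_le
    intro n hn
    have h4 : N.map (MulAut.conj h).toMonoidHom ≤ N := by
      rw [hN, MonoidHom.map_closure, closure_le]
      rintro _ ⟨x, hx, rfl⟩
      change h * x * h⁻¹ ∈ N
      rcases hx with (⟨b, rfl⟩ | ⟨a, rfl⟩) | hx
      · exact hSN _ (L.conj_mem hhA (hτS b))
      · apply hqN
        exact (mem_normalizer_zpowers.mp hhN _).mp (hδD a)
      · rw [Set.mem_singleton_iff] at hx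
        rw [hx]
        have : h * u * h⁻¹ = (h * u * h⁻¹ * u⁻¹) * u := by group
        rw [this]
        exact mul_mem (hqN _ hw) huN
    exact h4 ⟨n, hn, rfl⟩
  have hAN : ∀ a ∈ A, a ∈ normalizer (N : Set G) := by
    intro a ha
    obtain ⟨s, hs, h, hhN, hhA, rfl⟩ := P.fact a ha
    exact mul_mem (le_normalizer (hSN s hs)) (hnorm h hhN hhA)
  have hNn : N.Normal := by
    rw [← Subgroup.normalizer_eq_top_iff, Subgroup.eq_top_iff']
    intro g
    by_cases hg : g ∈ A
    · exact hAN g hg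
    · have hg0 : g • x0 ≠ x0 := fun h => hg ((fixes_base g).mp h)
      obtain ⟨s, hs, h⟩ := P.reg _ hg0
      have h1 : (s * u)⁻¹ * g ∈ A := by
        rw [← fixes_base (S := S)]
        change ((s * u)⁻¹ * g) • x0 = x0
        rw [mul_smul, ← h, inv_smul_eq_iff, mul_smul]
      have h2 : g = (s * u) * ((s * u)⁻¹ * g) := by group
      rw [h2]
      exact mul_mem (le_normalizer (mul_mem (hSN s hs) huN)) (hAN _ h1)
  -- the homomorphism to the automorphism group
  obtain ⟨e2'⟩ := Cfsg.Agent.H21.nonempty_mulEquiv_psl2 (F := F)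
  have hinj : Function.Injective (MulAut.conjNormal : G →* MulAut N) := by
    rw [injective_iff_map_eq_one]
    intro g hg
    have hcomm : ∀ n ∈ N, g * n = n * g := by
      intro n hn
      have h1 := congrArg (fun φ : MulAut N => ((φ ⟨n, hn⟩ : N) : G)) hg
      have h2 : g * n * g⁻¹ = n := by
        have h3 : ((MulAut.conjNormal g ⟨n, hn⟩ : N) : G) = g * n * g⁻¹ :=
          MulAut.conjNormal_apply g ⟨n, hn⟩
        rw [← h3]
        exact h1
      rwa [mul_inv_eq_iff_eq_mul] at h2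
    have hgS : g ∈ S := L.selfc g (fun s hs => hcomm s (hSN s hs))
    by_contra hg1
    exact L.no7 P.qo (L.sq g hgS) hg1 (hcomm q (hqN q (mem_zpowers q))).symm
  have hcSL : Nat.card (Matrix.SpecialLinearGroup (Fin 2) F) = 504 := by
    rw [← Nat.card_congr e1'.toEquiv, hcN, hcF]
  have hcAut : Nat.card (MulAut (Matrix.ProjectiveSpecialLinearGroup (Fin 2) F)) = 1512 := by
    rw [Cfsg.Agent.S0813.result (F := F) 2 3 (by norm_num) (by rw [hcF]; norm_num) 2 le_rfl
      (fun _ => by norm_num), Cfsg.Agent.S0265.result, hcSL]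
    simp
  let e3 : N ≃* Matrix.ProjectiveSpecialLinearGroup (Fin 2) F := e1'.trans e2'
  have hcAutN : Nat.card (MulAut N) = Nat.card G := by
    rw [P.card, ← hcAut]
    exact Nat.card_congr (MulAut.congr e3).toEquiv
  have hb := (Nat.bijective_iff_injective_and_card (MulAut.conjNormal : G →* MulAut N)).mpr
    ⟨hinj, hcAutN.symm⟩
  exact ⟨F, fF, fin, hcF, ⟨(MulEquiv.ofBijective _ hb).trans (MulAut.congr e3)⟩⟩

end

end Cfsg.Agent.JV
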