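import Mathlib.GroupTheory.SpecificGroups.Alternating
import Mathlib.Tactic

/-! An involution of `A_m`, `m ≥ 6`, is a product of squares in its centraliser. -/

set_option autoImplicit false

namespace Cfsg.Agent.JV

open Equiv Equiv.Perm

variable {m : ℕ}

theorem conj_swap (σ : Perm (Fin m)) (x y : Fin m) : σ * swap x y * σ⁻¹ = swap (σ x) (σ y) :=
  (Equiv.swap_apply_apply σ x y).symm

theorem comm_of_conj {σ τ : Perm (Fin m)} (h : σ * τ * σ⁻¹ = τ) : τ * σ = σ * τ := by
  rw [mul_inv_eq_iff_eq_mul] at h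
  exact h.symm

theorem exists_pair (hm : 6 ≤ m) {σ : Perm (Fin m)} (hσ : ∀ z, σ (σ z) = z) {a b c d : Fin m}
    (hab : σ a = b) (hcd : σ c = d) :
    ∃ e f : Fin m, e ≠ f ∧ e ≠ a ∧ e ≠ b ∧ e ≠ c ∧ e ≠ d ∧ f ≠ a ∧ f ≠ b ∧ f ≠ c ∧ f ≠ d ∧
      swap e f * σ = σ * swap e f := by
  have hba : σ b = a := by rw [← hab, hσ]
  have hdc : σ d = c := by rw [← hcd, hσ]
  have key : ∀ e : Fin m, e ≠ a → e ≠ b → e ≠ c → e ≠ d → σ e ≠ e →
      ∃ e f : Fin m, e ≠ f ∧ e ≠ a ∧ e ≠ b ∧ e ≠ c ∧ e ≠ d ∧ f ≠ a ∧ f ≠ b ∧ f ≠ c ∧ f ≠ d ∧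
      swap e f * σ = σ * swap e f := by
    intro e h1 h2 h3 h4 h5
    refine ⟨e, σ e, h5.symm, h1, h2, h3, h4, ?_, ?_, ?_, ?_, ?_⟩
    · intro h; apply h2; rw [← hσ e, h, hab]
    · intro h; apply h1; rw [← hσ e, h, hba]
    · intro h; apply h4; rw [← hσ e, h, hcd]
    · intro h; apply h3; rw [← hσ e, h, hdc]
    · apply comm_of_conj
      rw [conj_swap, hσ, swap_comm]
  obtain ⟨e, he⟩ : ∃ e : Fin m, e ∉ ({a, b, c, d} : Finset (Fin m)) := by
    by_contra h
    push Not at h
    have h1 : (Finset.univ : Finset (Fin m)) ⊆ {a, b, c, d} := fun z _ => h z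
    have h2 := Finset.card_le_card h1
    rw [Finset.card_univ, Fintype.card_fin] at h2
    have h3 : ({a, b, c, d} : Finset (Fin m)).card ≤ 4 := Finset.card_le_four
    omega
  simp only [Finset.mem_insert, Finset.mem_singleton, not_or] at he
  obtain ⟨he1, he2, he3, he4⟩ := he
  by_cases hse : σ e = e
  · obtain ⟨f, hf⟩ : ∃ f : Fin m, f ∉ ({a, b, c, d, e} : Finset (Fin m)) := by
      by_contra h
      push Not at h
      have h1 : (Finset.univ : Finset (Fin m)) ⊆ {a, b, c, d, e} := fun z _ => h z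
      have h2 := Finset.card_le_card h1
      rw [Finset.card_univ, Fintype.card_fin] at h2
      have h3 : ({a, b, c, d, e} : Finset (Fin m)).card ≤ 5 := Finset.card_le_five
      omega
    simp only [Finset.mem_insert, Finset.mem_singleton, not_or] at hf
    obtain ⟨hf1, hf2, hf3, hf4, hf5⟩ := hf
    by_cases hsf : σ f = f
    · refine ⟨e, f, fun h => hf5 h.symm, he1, he2, he3, he4, hf1, hf2, hf3, hf4, ?_⟩
      apply comm_of_conj
      rw [conj_swap, hse, hsf]
    · exact key f hf1 hf2 hf3 hf4 hsf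
  · exact key e he1 he2 he3 he4 hse

theorem swap_sq (x y : Fin m) : swap x y * swap x y = 1 := Equiv.swap_mul_self x y

theorem swap_disj {x y z w : Fin m} (h1 : x ≠ z) (h2 : x ≠ w) (h3 : y ≠ z) (h4 : y ≠ w) :
    swap x y * swap z w = swap z w * swap x y := by
  apply comm_of_conj
  rw [conj_swap, swap_apply_of_ne_of_ne h1 h2, swap_apply_of_ne_of_ne h3 h4]

theorem mu_mem (hm : 6 ≤ m) {σ : Perm (Fin m)} (hσ : ∀ z, σ (σ z) = z)
    (K : Subgroup (Perm (Fin m))) (hK : ∀ y : Perm (Fin m), sign y = 1 → y * σ = σ * y → y * y ∈ K)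
    {a b c d : Fin m} (hab : σ a = b) (hcd : σ c = d) (nab : a ≠ b) (nac : a ≠ c) (nad : a ≠ d)
    (nbc : b ≠ c) (nbd : b ≠ d) (ncd : c ≠ d) : swap a b * swap c d ∈ K := by
  obtain ⟨e, f, nef, h1, h2, h3, h4, h5, h6, h7, h8, h9⟩ := exists_pair hm hσ hab hcd
  have hba : σ b = a := by rw [← hab, hσ]
  have hdc : σ d = c := by rw [← hcd, hσ]
  set s := swap a b with hs
  set g := swap a c * swap b d with hg
  set t := swap e f with ht
  have hgc : swap a c * swap b d = swap b d * swap a c := swap_disj nab nad nbc.symm ncd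
  have hgg : g * g = 1 := by
    rw [hg]
    nth_rewrite 2 [hgc]
    rw [mul_assoc, ← mul_assoc (swap b d), swap_sq, one_mul, swap_sq]
  have hgi : g⁻¹ = g := inv_eq_of_mul_eq_one_left hgg
  have hga : g a = c := by
    rw [hg, Perm.mul_apply, swap_apply_of_ne_of_ne nab nad, swap_apply_left]
  have hgb : g b = d := by
    rw [hg, Perm.mul_apply, swap_apply_left, swap_apply_of_ne_of_ne nad.symm ncd.symm]
  have hgs : g * s * g = swap c d := by
    have h10 := conj_swap g a b
    rw [hgi, hga, hgb] at h10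
    exact h10
  have hst : s * t = t * s := by
    rw [hs, ht]
    exact swap_disj h1.symm h5.symm h2.symm h6.symm
  have hgt : g * t = t * g := by
    have e1 : swap a c * t = t * swap a c := swap_disj h1.symm h5.symm h3.symm h7.symm
    have e2 : swap b d * t = t * swap b d := swap_disj h2.symm h6.symm h4.symm h8.symm
    rw [hg, mul_assoc, e2, ← mul_assoc, e1, mul_assoc]
  have hyy : (s * g * t) * (s * g * t) = swap a b * swap c d := by
    have e3 : s * g * t = t * (s * g) := by
      rw [mul_assoc, hgt, ← mul_assoc, hst, mul_assoc]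
    have e4 : t * t = 1 := swap_sq e f
    calc (s * g * t) * (s * g * t) = (s * g * t) * (t * (s * g)) := by rw [← e3]
      _ = s * g * (t * t) * (s * g) := by simp only [mul_assoc]
      _ = s * (g * s * g) := by rw [e4, mul_one]; simp only [mul_assoc]
      _ = _ := by rw [hgs]
  rw [← hyy]
  apply hK
  · rw [Perm.sign_mul, Perm.sign_mul, hg, Perm.sign_mul, hs, ht, sign_swap nab, sign_swap nac, sign_swap nbd,
      sign_swap nef]
    decide
  · have c1 : s * σ = σ * s := by
      apply comm_of_conj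
      rw [hs, conj_swap, hab, hba, swap_comm]
    have c2 : g * σ = σ * g := by
      apply comm_of_conj
      have : σ * (swap a c * swap b d) * σ⁻¹ = (σ * swap a c * σ⁻¹) * (σ * swap b d * σ⁻¹) := by
        group
      rw [hg, this, conj_swap, conj_swap, hab, hcd, hba, hdc, ← hgc]
    rw [mul_assoc, h9, ← mul_assoc, mul_assoc s g σ, c2, ← mul_assoc, c1]
    simp only [mul_assoc]

theorem perm_sq (hm : 6 ≤ m) {σ : Perm (Fin m)} (hσ : ∀ z, σ (σ z) = z)
    (K : Subgroup (Perm (Fin m))) (hK : ∀ y : Perm (Fin m), sign y = 1 → y * σ = σ * y → y * y ∈ K)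
    (n : ℕ) : ∀ ν : Perm (Fin m), sign ν = 1 → (∀ z, ν z = z ∨ ν z = σ z) → ν.support.card = n →
      ν ∈ K := by
  induction n using Nat.strong_induction_on with
  | _ n ih =>
    intro ν hsν hν hn
    by_cases h1 : ν = 1
    · rw [h1]; exact one_mem _
    obtain ⟨a, ha⟩ : ∃ a, ν a ≠ a := by
      by_contra h
      push Not at h
      exact h1 (Equiv.ext h)
    set b := ν a with hb
    have hab : σ a = b := ((hν a).resolve_left ha).symm
    have hba : σ b = a := by rw [← hab, hσ]
    have nab : a ≠ b := fun h => ha h.symm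
    have hνb : ν b = a := by
      rcases hν b with h | h
      · exact absurd (ν.injective (h.trans hb)) nab.symm
      · rw [h, hba]
    obtain ⟨c, hc⟩ : ∃ c, ν c ≠ swap a b c := by
      by_contra h
      push Not at h
      have h2 : ν = swap a b := Equiv.ext h
      rw [h2, sign_swap nab] at hsν
      exact absurd hsν (by decide)
    have nac : a ≠ c := by
      rintro rfl
      exact hc (by rw [swap_apply_left])
    have nbc : b ≠ c := by
      intro h
      apply hc
      rw [← h, hνb, swap_apply_right]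
    rw [swap_apply_of_ne_of_ne nac.symm nbc.symm] at hc
    set d := ν c with hd
    have hcd : σ c = d := ((hν c).resolve_left hc).symm
    have hdc : σ d = c := by rw [← hcd, hσ]
    have ncd : c ≠ d := fun h => hc h.symm
    have hνd : ν d = c := by
      rcases hν d with h | h
      · exact absurd (ν.injective (h.trans hd)) ncd.symm
      · rw [h, hdc]
    have nad : a ≠ d := by
      intro h
      apply nbc
      rw [← hνd, ← h, hb]
    have nbd : b ≠ d := by
      intro h
      apply nac
      rw [← hνb, h, hνd]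
    have hμ := mu_mem hm hσ K hK hab hcd nab nac nad nbc nbd ncd
    set μ := swap a b * swap c d with hμdef
    have hμμ : μ * μ = 1 := by
      have h2 : swap a b * swap c d = swap c d * swap a b := swap_disj nac nad nbc nbd
      rw [hμdef]
      nth_rewrite 2 [h2]
      rw [mul_assoc, ← mul_assoc (swap c d), swap_sq, one_mul, swap_sq]
    have hμa : μ a = b := by
      rw [hμdef, Perm.mul_apply, swap_apply_of_ne_of_ne nac nad, swap_apply_left]
    have hμb : μ b = a := by
      rw [hμdef, Perm.mul_apply, swap_apply_of_ne_of_ne nbc nbd, swap_apply_right]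
    have hμc : μ c = d := by
      rw [hμdef, Perm.mul_apply, swap_apply_left, swap_apply_of_ne_of_ne nad.symm nbd.symm]
    have hμd : μ d = c := by
      rw [hμdef, Perm.mul_apply, swap_apply_right, swap_apply_of_ne_of_ne nac.symm nbc.symm]
    have hμo : ∀ z, z ≠ a → z ≠ b → z ≠ c → z ≠ d → μ z = z := by
      intro z h2 h3 h4 h5
      rw [hμdef, Perm.mul_apply, swap_apply_of_ne_of_ne h4 h5, swap_apply_of_ne_of_ne h2 h3]
    have hval : ∀ z, (z = a ∨ z = b ∨ z = c ∨ z = d) ∧ (μ * ν) z = z ∨
        (z ≠ a ∧ z ≠ b ∧ z ≠ c ∧ z ≠ d) ∧ (μ * ν) z = ν z := by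
      intro z
      by_cases z1 : z = a
      · left; exact ⟨Or.inl z1, by rw [Perm.mul_apply, z1, ← hb, hμb]⟩
      by_cases z2 : z = b
      · left; exact ⟨Or.inr (Or.inl z2), by rw [Perm.mul_apply, z2, hνb, hμa]⟩
      by_cases z3 : z = c
      · left; exact ⟨Or.inr (Or.inr (Or.inl z3)), by rw [Perm.mul_apply, z3, ← hd, hμd]⟩
      by_cases z4 : z = d
      · left; exact ⟨Or.inr (Or.inr (Or.inr z4)), by rw [Perm.mul_apply, z4, hνd, hμc]⟩
      right
      refine ⟨⟨z1, z2, z3, z4⟩, ?_⟩
      rw [Perm.mul_apply]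
      apply hμo
      · intro h; exact z2 (ν.injective (h.trans hνb.symm))
      · intro h; exact z1 (ν.injective h)
      · intro h; exact z4 (ν.injective (h.trans hνd.symm))
      · intro h; exact z3 (ν.injective h)
    have hlt : (μ * ν).support.card < ν.support.card := by
      apply Finset.card_lt_card
      rw [Finset.ssubset_iff_of_subset]
      · refine ⟨a, ?_, ?_⟩
        · rw [mem_support]; exact ha
        · rw [notMem_support]
          rcases hval a with h | h
          · exact h.2
          · exact absurd rfl h.1.1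
      · intro z hz
        rw [mem_support] at hz ⊢
        rcases hval z with h | h
        · exact absurd h.2 hz
        · rwa [h.2] at hz
    have h3 : μ * ν ∈ K := by
      apply ih _ (hn ▸ hlt) (μ * ν) _ _ rfl
      · rw [Perm.sign_mul, hsν, mul_one, hμdef, Perm.sign_mul, sign_swap nab, sign_swap ncd]
        decide
      · intro z
        rcases hval z with h | h
        · left; exact h.2
        · rw [h.2]; exact hν z
    have h4 : ν = μ * (μ * ν) := by rw [← mul_assoc, hμμ, one_mul]
    rw [h4]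
    exact mul_mem hμ h3

/-- An involution of `A_m`, `m ≥ 6`, lies in every subgroup containing the squares of its
centraliser. -/
theorem alt_sq (hm : 6 ≤ m) (σ : alternatingGroup (Fin m)) (hσ : σ * σ = 1)
    (K : Subgroup (alternatingGroup (Fin m))) (hK : ∀ y, y * σ = σ * y → y * y ∈ K) : σ ∈ K := by
  have h1 : (σ : Perm (Fin m)) ∈ K.map (alternatingGroup (Fin m)).subtype := by
    apply perm_sq hm (σ := (σ : Perm (Fin m))) _ (K.map (alternatingGroup (Fin m)).subtype) _ _ _ _
      (fun z => Or.inr rfl) rfl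
    · intro z
      have := congrArg (fun τ : alternatingGroup (Fin m) => (τ : Perm (Fin m)) z) hσ
      exact this
    · intro y hy1 hy2
      have hy : y ∈ alternatingGroup (Fin m) := hy1
      exact ⟨⟨y, hy⟩ * ⟨y, hy⟩, hK ⟨y, hy⟩ (Subtype.ext hy2), rfl⟩
    · exact σ.2
  obtain ⟨τ, hτ, hτσ⟩ := h1
  have : τ = σ := Subtype.ext hτσ
  rw [← this]; exact hτ

end Cfsg.Agent.JV
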